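import Cfsg.Agent.TvGenerated.Symplectic
import Cfsg.Agent.SLn.Basic

/-!
The decomposition of a group generated by transvections into special linear and symplectic factors.
-/

set_option autoImplicit false
set_option linter.style.haveILetI false
set_option linter.unusedSectionVars false

namespace CfsgLib.TvGenerated

variable {p : ℕ} [Fact p.Prime] {V : Type*} [AddCommGroup V] [Module (ZMod p) V] [Finite V]

/-- A special linear piece, or a symplectic one all of whose transvections are symplectic. -/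
def Shape (H : Subgroup (V ≃ₗ[ZMod p] V)) (U R : Submodule (ZMod p) V) : Prop :=
  SLP H U R ∨ ∃ B, SpP H U R B ∧
    ∀ a φ, Tv H a φ → a ≠ 0 → φ ≠ 0 → Inside U R a φ → ∃ c : ZMod p, φ = c • B a

/-- A piece that splits every transvection. -/
def Good (H : Subgroup (V ≃ₗ[ZMod p] V)) (U R : Submodule (ZMod p) V) : Prop :=
  Split H U R ∧ ((SLP H U R ∧ 3 ≤ Module.finrank (ZMod p) U) ∨
    (U ≠ ⊥ ∧ ∃ B, SpP H U R B ∧
      ∀ a φ, Tv H a φ → a ≠ 0 → φ ≠ 0 → Inside U R a φ → ∃ c : ZMod p, φ = c • B a))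

variable {H : Subgroup (V ≃ₗ[ZMod p] V)} {U R U' R' : Submodule (ZMod p) V}

theorem Good.compl (h : Good H U R) : IsCompl U R := by
  rcases h.2 with ⟨h', -⟩ | ⟨-, B, h', -⟩
  · exact h'.compl
  · exact h'.compl

theorem Good.ne_bot (h : Good H U R) : U ≠ ⊥ := by
  rcases h.2 with ⟨-, h'⟩ | ⟨h', -⟩
  · intro e
    rw [e, finrank_bot] at h'
    omega
  · exact h'

theorem Good.shape (h : Good H U R) : Shape H U R := by
  rcases h.2 with ⟨h', -⟩ | ⟨-, h'⟩
  · exact Or.inl h'
  · exact Or.inr h'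

theorem Good.exists_functional (h : Good H U R) {u : V} (hu : u ∈ U) (hu0 : u ≠ 0) :
    ∃ ψ : Module.Dual (ZMod p) V, ψ ≠ 0 ∧ Tv H u ψ ∧ Inside U R u ψ := by
  rcases h.2 with ⟨hP, hd⟩ | ⟨-, B, hP, -⟩
  · obtain ⟨w, hw, hw'⟩ := exists_ne_span (by omega : 2 ≤ Module.finrank (ZMod p) U) u
    obtain ⟨η, hη, hηS, hηR⟩ := exists_fun_U hP.compl (S := Submodule.span (ZMod p) {u})
      (by rwa [Submodule.span_singleton_le_iff_mem]) hw hw'
    exact ⟨η, fun e => by simp [e] at hη, hP.tv u hu η (hηS u (Submodule.mem_span_singleton_self u)) hηR, hu, hηR⟩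
  · obtain ⟨w, -, hw⟩ := hP.nd u hu hu0
    exact ⟨B u, fun e => hw (by rw [e]; rfl), hP.tv u hu, hu, fun r hr => hP.apply_R u hr⟩

theorem Good.exists_centre (h : Good H U R) {ψ : Module.Dual (ZMod p) V} (hψ : ∀ r ∈ R, ψ r = 0)
    (hψ0 : ψ ≠ 0) : ∃ z ∈ U, z ≠ 0 ∧ Tv H z ψ := by
  rcases h.2 with ⟨hP, hd⟩ | ⟨-, B, hP, -⟩
  · obtain ⟨u, hu, hψu⟩ := exists_apply_ne hP.compl hψ hψ0
    obtain ⟨w, hw, hw'⟩ := exists_ne_span (by omega : 2 ≤ Module.finrank (ZMod p) U) u
    refine ⟨w - (ψ w / ψ u) • u, sub_mem hw (U.smul_mem _ hu),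
      fun e => hw' (Submodule.mem_span_singleton.mpr ⟨_, (sub_eq_zero.mp e).symm⟩),
      hP.tv _ (sub_mem hw (U.smul_mem _ hu)) ψ ?_ hψ⟩
    rw [map_sub, map_smul, smul_eq_mul, div_mul_cancel₀ _ hψu, sub_self]
  · obtain ⟨z, hz, rfl⟩ := hP.exists_rep hψ
    exact ⟨z, hz, fun e => hψ0 (by rw [e, map_zero]), hP.tv z hz⟩

theorem le_or_le (h : Good H U R) (h' : Good H U' R') : U ≤ U' ∨ U ≤ R' := by
  by_contra hn
  push Not at hn
  obtain ⟨a, haU, ha'⟩ := SetLike.not_le_iff_exists.mp hn.1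
  obtain ⟨b, hbU, hb'⟩ := SetLike.not_le_iff_exists.mp hn.2
  have key : ∀ u ∈ U, u ∈ U' ∨ u ∈ R' := by
    intro u hu
    by_cases hu0 : u = 0
    · exact Or.inl (hu0 ▸ zero_mem _)
    obtain ⟨ψ, hψ, ht, -⟩ := h.exists_functional hu hu0
    rcases h'.1 u ψ ht hu0 hψ with hi | ho
    · exact Or.inl hi.1
    · exact Or.inr ho.1
  have haR := (key a haU).resolve_left ha'
  have hbU' := (key b hbU).resolve_right hb'
  rcases key (a + b) (add_mem haU hbU) with e | e
  · exact ha' (by simpa using sub_mem e hbU')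
  · exact hb' (by simpa using sub_mem e haR)

theorem fun_kill_le (hc : IsCompl U R) {x : V} (h : ∀ ψ : Module.Dual (ZMod p) V, (∀ r ∈ R, ψ r = 0) → ψ x = 0) :
    x ∈ R := by
  by_contra hx
  obtain ⟨η, h1, h2⟩ := exists_fun hx
  exact one_ne_zero (h1.symm.trans (h η h2))

theorem Good.eq_or_perp (h : Good H U R) (h' : Good H U' R') :
    (U = U' ∧ R = R') ∨ (U ≤ R' ∧ U' ≤ R) := by
  have side : ∀ {U R U' R' : Submodule (ZMod p) V}, Good H U R → Good H U' R' → U ≤ U' → R' ≤ R := by
    intro U R U' R' h h' hle x hx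
    refine fun_kill_le h.compl fun ψ hψ => ?_
    by_cases hψ0 : ψ = 0
    · rw [hψ0]; rfl
    obtain ⟨z, hz, hz0, ht⟩ := h.exists_centre hψ hψ0
    rcases h'.1 z ψ ht hz0 hψ0 with hi | ho
    · exact hi.2 x hx
    · exact absurd (eq_zero_of_mem_both h'.compl (hle hz) ho.1) hz0
  rcases le_or_le h h' with hle | hle
  · left
    rcases le_or_le h' h with hle' | hle'
    · exact ⟨le_antisymm hle hle', le_antisymm (side h' h hle') (side h h' hle)⟩
    · exact absurd ((Submodule.eq_bot_iff _).mpr fun u hu => eq_zero_of_mem_both h.compl hu (hle' (hle hu))) h.ne_bot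
  · refine Or.inr ⟨hle, fun x hx => fun_kill_le h.compl fun ψ hψ => ?_⟩
    by_cases hψ0 : ψ = 0
    · rw [hψ0]; rfl
    obtain ⟨z, hz, hz0, ht⟩ := h.exists_centre hψ hψ0
    rcases h'.1 z ψ ht hz0 hψ0 with hi | ho
    · exact absurd (eq_zero_of_mem_both h'.compl hi.1 (hle hz)) hz0
    · exact ho.2 x hx

theorem exists_good (hp : p ≠ 2) (hPt : Partner H) {a : V} {φ : Module.Dual (ZMod p) V} (h : Tv H a φ)
    (ha : a ≠ 0) (hφ : φ ≠ 0) : ∃ U R, Good H U R ∧ Inside U R a φ := by
  classical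
  by_cases hSL : ∃ U R, SLP H U R ∧ 3 ≤ Module.finrank (ZMod p) U ∧ Inside U R a φ
  · let S : Set ℕ := {d | ∃ U R, SLP H U R ∧ 3 ≤ Module.finrank (ZMod p) U ∧ Inside U R a φ ∧
      Module.finrank (ZMod p) U = d}
    obtain ⟨U, R, h1, h2, h3⟩ := hSL
    have hne : S.Nonempty := ⟨_, U, R, h1, h2, h3, rfl⟩
    have hbdd : BddAbove S := ⟨Module.finrank (ZMod p) V, by
      rintro d ⟨U, R, -, -, -, rfl⟩; exact U.finrank_le⟩
    obtain ⟨U, R, h1, h2, h3, h4⟩ := Nat.sSup_mem hne hbdd
    refine ⟨U, R, ⟨(h1.split_or_grow hPt h2).resolve_right ?_, Or.inl ⟨h1, h2⟩⟩, h3⟩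
    rintro ⟨r, hr, ρ, hρr, -, hP'⟩
    have hlt : U < U ⊔ Submodule.span (ZMod p) {r} := lt_of_le_of_ne le_sup_left fun e =>
      hρr (by rw [eq_zero_of_mem_both h1.compl
        (e ▸ Submodule.mem_sup_right (Submodule.mem_span_singleton_self r)) hr, map_zero])
    have hfr := Submodule.finrank_lt_finrank_of_lt hlt
    have := le_csSup hbdd (show Module.finrank (ZMod p) ↥(U ⊔ Submodule.span (ZMod p) {r}) ∈ S from
      ⟨_, _, hP', by omega, ⟨Submodule.mem_sup_left h3.1, fun x hx => h3.2 x (Submodule.mem_inf.mp hx).1⟩, rfl⟩)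
    omega
  -- no special linear piece: a largest symplectic one
  let S : Set ℕ := {d | ∃ U R B, SpP H U R B ∧ Inside U R a φ ∧ Module.finrank (ZMod p) U = d}
  have hbdd : BddAbove S := ⟨Module.finrank (ZMod p) V, by
    rintro d ⟨U, R, B, -, -, rfl⟩; exact U.finrank_le⟩
  have hne : S.Nonempty := by
    obtain ⟨b, ψ, hb, hφb, hψa⟩ := hPt a φ h ha hφ
    have h0 : SpP H (⊥ : Submodule (ZMod p) V) ⊤ 0 :=
      ⟨isCompl_bot_top, fun x => rfl, fun r _ => rfl, fun u hu hu0 => absurd ((Submodule.mem_bot _).mp hu) hu0,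
        fun u _ => tv_zero_right u⟩
    obtain ⟨B', hB', -⟩ := h0.extend (a0 := 0) one_ne_zero (Submodule.mem_top (x := a)) (Submodule.mem_top (x := b))
      (fun u hu => by rw [(Submodule.mem_bot _).mp hu, map_zero])
      (fun u hu => by rw [(Submodule.mem_bot _).mp hu, map_zero]) h hb hφb hψa (Or.inl rfl)
    exact ⟨_, _, _, B', hB', ⟨Submodule.mem_sup_right (Submodule.subset_span (by simp)),
      fun x hx => LinearMap.mem_ker.mp (Submodule.mem_inf.mp (Submodule.mem_inf.mp hx).1).2⟩, rfl⟩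
  obtain ⟨U, R, B, hP, hin, hd⟩ := Nat.sSup_mem hne hbdd
  have hbot : U ≠ ⊥ := fun e => ha ((Submodule.mem_bot _).mp (e ▸ hin.1))
  have hB : ¬ Big H U R := fun ⟨U', R', h1, h2, h3, h4⟩ =>
    hSL ⟨U', R', h1, h2, h3 hin.1, fun x hx => hin.2 x (h4 hx)⟩
  have hsplit := (hP.split_or_grow hp hPt hB hbot).resolve_right (by
    rintro ⟨U', R', B', hP', hlt, hle⟩
    have hfr := Submodule.finrank_lt_finrank_of_lt hlt
    have := le_csSup hbdd (show Module.finrank (ZMod p) U' ∈ S from
      ⟨U', R', B', hP', ⟨hlt.le hin.1, fun x hx => hin.2 x (hle hx)⟩, rfl⟩)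
    omega)
  refine ⟨U, R, ⟨fun b ψ hb hb0 hψ0 => ?_, Or.inr ⟨hbot, B, hP, fun b ψ hb hb0 hψ0 hi => ?_⟩⟩, hin⟩
  · rcases hsplit b ψ hb hb0 hψ0 with ⟨hbU, c, rfl⟩ | ho
    · exact Or.inl ⟨hbU, fun r hr => by simp [hP.apply_R b hr]⟩
    · exact Or.inr ho
  · rcases hsplit b ψ hb hb0 hψ0 with ⟨-, hc⟩ | ho
    · exact hc
    · exact absurd (eq_zero_of_mem_both hP.compl hi.1 ho.1) hb0

section Group

variable (H) in
/-- The transvections of `H` acting on `U` only generate this group. -/
def factor (U R : Submodule (ZMod p) V) : Subgroup (V ≃ₗ[ZMod p] V) :=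
  Subgroup.closure {g | g ∈ H ∧ ∃ a φ, φ a = 0 ∧ Inside U R a φ ∧ ∀ x, g x = x + φ x • a}

theorem factor_le : factor H U R ≤ H := (Subgroup.closure_le H).mpr fun _ hg => hg.1

theorem factor_fix {g : V ≃ₗ[ZMod p] V} (hg : g ∈ factor H U R) : ∀ x ∈ R, g x = x := by
  induction hg using Subgroup.closure_induction with
  | mem g hg =>
    obtain ⟨-, a, φ, -, hi, he⟩ := hg
    exact fun x hx => by rw [he, hi.2 x hx, zero_smul, add_zero]
  | one => exact fun x _ => rfl
  | mul g k _ _ hg hk => exact fun x hx => by show g (k x) = x; rw [hk x hx, hg x hx]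
  | inv g _ hg =>
    intro x hx
    conv_lhs => rw [← hg x hx]
    exact LinearEquiv.symm_apply_apply g x

theorem factor_map {g : V ≃ₗ[ZMod p] V} (hg : g ∈ factor H U R) : ∀ x, g x - x ∈ U := by
  induction hg using Subgroup.closure_induction with
  | mem g hg =>
    obtain ⟨-, a, φ, -, hi, he⟩ := hg
    exact fun x => by rw [he, add_sub_cancel_left]; exact U.smul_mem _ hi.1
  | one => exact fun x => by simp
  | mul g k _ _ hg hk =>
    intro x
    show g (k x) - x ∈ U
    rw [← sub_add_sub_cancel (g (k x)) (k x) x]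
    exact add_mem (hg _) (hk _)
  | inv g _ hg =>
    intro x
    have h := neg_mem (hg ((g⁻¹ : V ≃ₗ[ZMod p] V) x))
    rw [show g ((g⁻¹ : V ≃ₗ[ZMod p] V) x) = x from LinearEquiv.apply_symm_apply g x, neg_sub] at h
    exact h

theorem factor_mapsTo {g : V ≃ₗ[ZMod p] V} (hg : g ∈ factor H U R) {x : V} (hx : x ∈ U) : g x ∈ U := by
  simpa using add_mem (factor_map hg x) hx

theorem commute_factor (h1 : U ≤ R') (h2 : U' ≤ R) {g k : V ≃ₗ[ZMod p] V} (hg : g ∈ factor H U R)
    (hk : k ∈ factor H U' R') : g * k = k * g := by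
  refine LinearEquiv.ext fun x => ?_
  show g (k x) = k (g x)
  calc g (k x) = g (x + (k x - x)) := by rw [add_sub_cancel]
    _ = g x + (k x - x) := by rw [map_add, factor_fix hg _ (h2 (factor_map hk x))]
    _ = k x + (g x - x) := by abel
    _ = k (x + (g x - x)) := by rw [map_add, factor_fix hk _ (h1 (factor_map hg x))]
    _ = k (g x) := by rw [add_sub_cancel]

theorem mem_factor {a : V} {φ : Module.Dual (ZMod p) V} (h : Tv H a φ) (hi : Inside U R a φ)
    {g : V ≃ₗ[ZMod p] V} (hg : ∀ x, g x = x + φ x • a) : g ∈ factor H U R := by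
  obtain ⟨ha, k, hk, ek⟩ := h
  have : g = k := LinearEquiv.ext fun x => by rw [hg, ek]
  rw [this]
  exact Subgroup.subset_closure ⟨hk, a, φ, ha, hi, ek⟩

variable (H U R) in
/-- The action of the factor on `U`. -/
def act : ↥(factor H U R) →* (U ≃ₗ[ZMod p] U) :=
  MonoidHom.mk' (fun g =>
    { toFun := fun x => ⟨(g : V ≃ₗ[ZMod p] V) x, factor_mapsTo g.2 x.2⟩
      map_add' := fun x y => Subtype.ext (by simp)
      map_smul' := fun c x => Subtype.ext (by simp)
      invFun := fun x => ⟨((g⁻¹ : ↥(factor H U R)) : V ≃ₗ[ZMod p] V) x, factor_mapsTo (g⁻¹).2 x.2⟩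
      left_inv := fun x => Subtype.ext (LinearEquiv.symm_apply_apply (g : V ≃ₗ[ZMod p] V) _)
      right_inv := fun x => Subtype.ext (LinearEquiv.apply_symm_apply (g : V ≃ₗ[ZMod p] V) _) })
    fun _ _ => LinearEquiv.ext fun _ => Subtype.ext rfl

theorem act_apply (g : ↥(factor H U R)) (x : U) :
    ((act H U R g x : U) : V) = (g : V ≃ₗ[ZMod p] V) (x : V) := rfl

/-- Extension by the identity on `R`. -/
noncomputable def ext' (hc : IsCompl U R) : (U ≃ₗ[ZMod p] U) →* (V ≃ₗ[ZMod p] V) :=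
  MonoidHom.mk' (fun e => (Submodule.prodEquivOfIsCompl U R hc).symm ≪≫ₗ
    (e.prodCongr (LinearEquiv.refl _ R)) ≪≫ₗ Submodule.prodEquivOfIsCompl U R hc)
    fun e e' => LinearEquiv.ext fun x => by
      obtain ⟨⟨u, r⟩, rfl⟩ := (Submodule.prodEquivOfIsCompl U R hc).surjective x
      simp only [LinearEquiv.mul_apply, LinearEquiv.trans_apply, LinearEquiv.symm_apply_apply]
      rfl

theorem ext'_apply (hc : IsCompl U R) (e : U ≃ₗ[ZMod p] U) {u : V} (hu : u ∈ U) {r : V} (hr : r ∈ R) :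
    ext' hc e (u + r) = (e ⟨u, hu⟩ : U) + r := by
  have : (Submodule.prodEquivOfIsCompl U R hc).symm (u + r) = (⟨u, hu⟩, ⟨r, hr⟩) := by
    rw [LinearEquiv.symm_apply_eq, Submodule.coe_prodEquivOfIsCompl']
  simp [ext', this]

theorem mem_range_act (hc : IsCompl U R) {e : U ≃ₗ[ZMod p] U} (h : ext' hc e ∈ factor H U R) :
    e ∈ (act H U R).range :=
  ⟨⟨_, h⟩, LinearEquiv.ext fun x => Subtype.ext (by
    have e1 := ext'_apply hc e x.2 (zero_mem R)
    rw [add_zero, add_zero] at e1
    exact e1)⟩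

theorem sl_range (hP : SLP H U R) :
    ((act H U R).range : Set (U ≃ₗ[ZMod p] U)) =
      {e : U ≃ₗ[ZMod p] U | LinearMap.det (e : U →ₗ[ZMod p] U) = 1} := by
  classical
  ext e
  constructor
  · rintro ⟨⟨g, hg⟩, rfl⟩
    show LinearMap.det _ = 1
    have key : ∀ g : ↥(factor H U R), LinearEquiv.det (act H U R g) = 1 := by
      rintro ⟨g, hg⟩
      induction hg using Subgroup.closure_induction with
      | mem g hg' =>
        have hgm : g ∈ factor H U R := Subgroup.subset_closure hg'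
        obtain ⟨-, a, φ, ha, hi, he⟩ := hg'
        refine Units.ext ?_
        rw [LinearEquiv.coe_det, show ((act H U R ⟨g, hgm⟩ : U ≃ₗ[ZMod p] U) :
            U →ₗ[ZMod p] U) = LinearMap.transvection (φ.comp U.subtype) ⟨a, hi.1⟩ from
          LinearMap.ext fun x => Subtype.ext (he x), LinearMap.transvection.det]
        show 1 + φ a = 1
        rw [ha, add_zero]
      | one =>
        have h1 : (⟨(1 : V ≃ₗ[ZMod p] V), one_mem (factor H U R)⟩ : ↥(factor H U R)) = 1 := rfl
        rw [h1, map_one, map_one]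
      | mul g k hg hk ihg ihk =>
        have h1 : (⟨g * k, mul_mem hg hk⟩ : ↥(factor H U R)) = ⟨g, hg⟩ * ⟨k, hk⟩ := rfl
        rw [h1, map_mul, map_mul, ihg, ihk, one_mul]
      | inv g hg ih =>
        have h1 : (⟨g⁻¹, inv_mem hg⟩ : ↥(factor H U R)) = (⟨g, hg⟩ : ↥(factor H U R))⁻¹ := rfl
        rw [h1, map_inv, map_inv, ih, inv_one]
    rw [← LinearEquiv.coe_det, key, Units.val_one]
  · intro hdet
    refine mem_range_act hP.compl ?_
    set n := Module.finrank (ZMod p) U
    let b := Module.finBasis (ZMod p) U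
    set E := b.equivFun
    let Ψ : Matrix.SpecialLinearGroup (Fin n) (ZMod p) →* (U ≃ₗ[ZMod p] U) :=
      MonoidHom.mk' (fun g => E ≪≫ₗ Matrix.SpecialLinearGroup.toLin' g ≪≫ₗ E.symm)
        fun g k => LinearEquiv.ext fun x => by simp
    have hdet' : (LinearMap.toMatrix' (E.toLinearMap ∘ₗ (e : U →ₗ[ZMod p] U) ∘ₗ E.symm.toLinearMap)).det = 1 := by
      rw [LinearMap.det_toMatrix']
      exact (LinearMap.det_conj (e : U →ₗ[ZMod p] U) E).trans hdet
    have he : Ψ ⟨_, hdet'⟩ = e := LinearEquiv.ext fun x => by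
      show E.symm (Matrix.toLin' (LinearMap.toMatrix' (E.toLinearMap ∘ₗ (e : U →ₗ[ZMod p] U) ∘ₗ E.symm.toLinearMap))
        (E x)) = e x
      rw [Matrix.toLin'_toMatrix']
      simp
    rw [← he]
    have hK : ((factor H U R).comap ((ext' hP.compl).comp Ψ)) = ⊤ := by
      rcases subsingleton_or_nontrivial (Fin n) with hn | hn
      · refine (Subgroup.eq_top_iff' _).mpr fun g => ?_
        have : g = 1 := Subtype.ext (Matrix.ext fun i j => by
          obtain rfl := Subsingleton.elim i j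
          have hg := g.2
          rw [Matrix.det_eq_elem_of_subsingleton _ i] at hg
          simpa using hg)
        rw [this]
        exact one_mem _
      · refine CfsgLib.SLn.eq_top_of_transvection _ fun i j hij c => ?_
        rw [Subgroup.mem_comap, MonoidHom.comp_apply]
        set u : U := E.symm (Pi.single i 1) with hu
        set φ : Module.Dual (ZMod p) V :=
          (c • ((LinearMap.proj j : (Fin n → ZMod p) →ₗ[ZMod p] ZMod p).comp E.toLinearMap)).comp
            (U.projectionOnto R hP.compl) with hφ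
        have hφu : φ u = 0 := by
          simp [hφ, hu, Pi.single_eq_of_ne hij.symm]
        have hφR : ∀ r ∈ R, φ r = 0 := fun r hr => by
          simp [hφ, Submodule.projectionOnto_apply_of_mem_right hP.compl hr]
        refine mem_factor (hP.tv u u.2 φ hφu hφR) ⟨u.2, hφR⟩ fun x => ?_
        obtain ⟨y, hy, r, hr, rfl⟩ := exists_parts hP.compl x
        rw [ext'_apply hP.compl _ hy hr]
        have hφy : φ (y + r) = c * E ⟨y, hy⟩ j := by
          rw [map_add, hφR r hr, add_zero]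
          simp [hφ, show U.projectionOnto R hP.compl y = ⟨y, hy⟩ from
            Submodule.projectionOnto_apply_left hP.compl ⟨y, hy⟩]
        rw [hφy]
        have : Ψ (Matrix.SpecialLinearGroup.transvection hij c) ⟨y, hy⟩ = ⟨y, hy⟩ + (c * E ⟨y, hy⟩ j) • u := by
          apply E.injective
          funext k
          simp only [Ψ, MonoidHom.mk'_apply, LinearEquiv.trans_apply, LinearEquiv.apply_symm_apply,
            Matrix.SpecialLinearGroup.toLin'_apply, Matrix.toLin'_apply, map_add, map_smul, hu, Pi.add_apply,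
            Pi.smul_apply, smul_eq_mul]
          rw [show (↑(Matrix.SpecialLinearGroup.transvection hij c) : Matrix (Fin n) (Fin n) (ZMod p)).mulVec
              (E ⟨y, hy⟩) k = (Matrix.SpecialLinearGroup.transvection hij c • E ⟨y, hy⟩) k from rfl,
            CfsgLib.SLn.transvection_smul_apply hij c]
          by_cases hk : k = i
          · subst hk; simp
          · simp [hk]
        rw [this]
        push_cast
        abel
    exact (Subgroup.eq_top_iff' _).mp hK _

theorem sp_range {B : V →ₗ[ZMod p] Module.Dual (ZMod p) V} (hP : SpP H U R B)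
    (hin : ∀ a φ, Tv H a φ → a ≠ 0 → φ ≠ 0 → Inside U R a φ → ∃ c : ZMod p, φ = c • B a) :
    ∃ Bf : LinearMap.BilinForm (ZMod p) U, Bf.IsAlt ∧ Bf.Nondegenerate ∧
      ((act H U R).range : Set (U ≃ₗ[ZMod p] U)) = {e | ∀ x y, Bf (e x) (e y) = Bf x y} := by
  classical
  let Bf : LinearMap.BilinForm (ZMod p) U :=
    (LinearMap.lcomp (ZMod p) (ZMod p) U.subtype).comp (B.comp U.subtype)
  have hBf : ∀ x y : U, Bf x y = B x y := fun x y => rfl
  have hnd : ∀ x : U, (∀ y, Bf x y = 0) → x = 0 := fun x hx => by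
    by_contra hx0
    obtain ⟨w, hw, hne⟩ := hP.nd x x.2 (fun e => hx0 (Subtype.ext e))
    exact hne (hx ⟨w, hw⟩)
  refine ⟨Bf, fun x => hP.alt x, ⟨hnd, fun y hy => hnd y fun x => ?_⟩, ?_⟩
  · rw [hBf, hP.skew x y, neg_eq_zero]; exact hy x
  ext e
  constructor
  · rintro ⟨⟨g, hg⟩, rfl⟩
    intro x y
    rw [hBf, hBf, act_apply, act_apply]
    have key : ∀ x ∈ U, ∀ y ∈ U, B (g x) (g y) = B x y := by
      induction hg using Subgroup.closure_induction with
      | mem g hg' =>
        obtain ⟨hgH, a, φ, ha, hi, he⟩ := hg'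
        intro x _ y _
        by_cases h0 : a = 0
        · simp [he, h0]
        by_cases h1 : φ = 0
        · simp [he, h1]
        obtain ⟨c, rfl⟩ := hin a φ ⟨ha, g, hgH, he⟩ h0 h1 hi
        simp [he, hP.alt, hP.skew a x]
        ring
      | one => exact fun x _ y _ => rfl
      | mul g k hg hk ihg ihk =>
        intro x hx y hy
        show B (g (k x)) (g (k y)) = _
        rw [ihg _ (factor_mapsTo hk hx) _ (factor_mapsTo hk hy), ihk x hx y hy]
      | inv g hg ih =>
        intro x hx y hy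
        have h := ih _ (factor_mapsTo (inv_mem hg) hx) _ (factor_mapsTo (inv_mem hg) hy)
        rw [show g ((g⁻¹ : V ≃ₗ[ZMod p] V) x) = x from LinearEquiv.apply_symm_apply g x,
          show g ((g⁻¹ : V ≃ₗ[ZMod p] V) y) = y from LinearEquiv.apply_symm_apply g y] at h
        exact h.symm
    exact key x x.2 y y.2
  · intro he
    refine mem_range_act hP.compl ?_
    suffices key : ∀ n, ∀ g : V ≃ₗ[ZMod p] V, (∀ x ∈ R, g x = x) → (∀ x ∈ U, g x ∈ U) →
        (∀ x y, B (g x) (g y) = B x y) →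
        n + Module.finrank (ZMod p) (LinearMap.eqLocus (g : V →ₗ[ZMod p] V) LinearMap.id) =
          Module.finrank (ZMod p) V → g ∈ factor H U R by
      refine key _ _ (fun x hx => ?_) (fun x hx => ?_) (fun x y => ?_)
        (Nat.sub_add_cancel (Submodule.finrank_le _))
      · have e1 := ext'_apply hP.compl e (zero_mem U) hx
        simpa [show (⟨0, zero_mem U⟩ : U) = 0 from rfl] using e1
      · have e1 := ext'_apply hP.compl e hx (zero_mem R)
        rw [add_zero, add_zero] at e1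
        rw [e1]; exact (e ⟨x, hx⟩).2
      · obtain ⟨u, hu, r, hr, rfl⟩ := exists_parts hP.compl x
        obtain ⟨u', hu', r', hr', rfl⟩ := exists_parts hP.compl y
        rw [ext'_apply hP.compl e hu hr, ext'_apply hP.compl e hu' hr']
        have h := he ⟨u, hu⟩ ⟨u', hu'⟩
        rw [hBf, hBf] at h
        simp [hP.rad r hr, hP.apply_R _ hr', h]
    intro n
    induction n using Nat.strong_induction_on with
    | _ n ih =>
      intro g hgR hgU hgB hn
      set E := LinearMap.eqLocus (g : V →ₗ[ZMod p] V) LinearMap.id with hE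
      have hmemE : ∀ x, x ∈ E ↔ g x = x := fun x => LinearMap.mem_eqLocus
      by_cases hall : ∀ x ∈ U, g x = x
      · have : g = 1 := LinearEquiv.ext fun x => by
          obtain ⟨u, hu, r, hr, rfl⟩ := exists_parts hP.compl x
          rw [map_add, hall u hu, hgR r hr]; rfl
        rw [this]; exact one_mem _
      push Not at hall
      obtain ⟨x, hx, hgx⟩ := hall
      -- a transvection of the factor moving one vector to another
      have mover : ∀ u z, u ∈ U → z ∈ U → B z u ≠ 0 → (∀ y ∈ E, B (z - u) y = 0) →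
          ∃ k ∈ factor H U R, k u = z ∧ (∀ y ∈ E, k y = y) ∧ (∀ y ∈ R, k y = y) ∧ (∀ y ∈ U, k y ∈ U) ∧
            ∀ y w, B (k y) (k w) = B y w := by
        intro u z hu hz hne hfix
        have hd : z - u ∈ U := sub_mem hz hu
        have hdu : B (z - u) u = B z u := by rw [map_sub, LinearMap.sub_apply, hP.alt, sub_zero]
        obtain ⟨h0, k, hk, ek⟩ := (hP.tv _ hd).smul_right (B z u)⁻¹
        have hkmem : k ∈ factor H U R := mem_factor ((hP.tv _ hd).smul_right (B z u)⁻¹)
          ⟨hd, fun r hr => by simp [hP.apply_R _ hr]⟩ ek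
        refine ⟨k, hkmem, ?_, fun y hy => by
            rw [ek, LinearMap.smul_apply, hfix y hy, smul_zero, zero_smul, add_zero],
          factor_fix hkmem, fun y hy => factor_mapsTo hkmem hy, fun y w => ?_⟩
        · rw [ek, LinearMap.smul_apply, smul_eq_mul, hdu, inv_mul_cancel₀ hne, one_smul, add_sub_cancel]
        · simp only [ek, map_add, map_smul, LinearMap.add_apply, LinearMap.smul_apply, smul_eq_mul,
            hP.alt, hP.skew (z - u) y]
          ring
      -- the composite fixes more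
      have finish : ∀ k ∈ factor H U R, k (g x) = x → (∀ y ∈ E, k y = y) → (∀ y ∈ R, k y = y) →
          (∀ y ∈ U, k y ∈ U) → (∀ y w, B (k y) (k w) = B y w) → g ∈ factor H U R := by
        intro k hk hkx hkE hkR hkU hkB
        have hlt : E < LinearMap.eqLocus ((k * g : V ≃ₗ[ZMod p] V) : V →ₗ[ZMod p] V) LinearMap.id := by
          refine lt_of_le_of_ne (fun y hy => LinearMap.mem_eqLocus.mpr (show k (g y) = y by
            rw [(hmemE y).mp hy, hkE y hy])) fun e => hgx ((hmemE x).mp ?_)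
          rw [e]
          exact LinearMap.mem_eqLocus.mpr hkx
        have hfr := Submodule.finrank_lt_finrank_of_lt hlt
        have hle := Submodule.finrank_le (LinearMap.eqLocus ((k * g : V ≃ₗ[ZMod p] V) : V →ₗ[ZMod p] V) LinearMap.id)
        have h := ih _ (by omega : Module.finrank (ZMod p) V -
          Module.finrank (ZMod p) (LinearMap.eqLocus ((k * g : V ≃ₗ[ZMod p] V) : V →ₗ[ZMod p] V) LinearMap.id) < n)
          (k * g) (fun y hy => by show k (g y) = y; rw [hgR y hy, hkR y hy])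
          (fun y hy => hkU _ (hgU y hy)) (fun y w => (hkB _ _).trans (hgB y w)) (Nat.sub_add_cancel hle)
        simpa using mul_mem (inv_mem hk) h
      by_cases hb : B x (g x) = 0
      swap
      · obtain ⟨k, hk, h1, h2, h3, h4, h5⟩ := mover (g x) x (hgU x hx) hx hb fun y hy => by
          rw [map_sub, LinearMap.sub_apply]
          conv_lhs => arg 2; rw [← (hmemE y).mp hy]
          rw [hgB, sub_self]
        exact finish k hk h1 h2 h3 h4 h5
      obtain ⟨e', heU, he1, he2, heE⟩ : ∃ e' ∈ U, B e' x ≠ 0 ∧ B e' (g x) ≠ 0 ∧ ∀ y ∈ E, B e' y = 0 := by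
        have hxE : x ∉ E := fun h => hgx ((hmemE x).mp h)
        have hgxE : g x ∉ E := fun h => hgx (g.injective ((hmemE _).mp h))
        obtain ⟨η1, a1, b1⟩ := exists_fun hxE
        obtain ⟨η2, a2, b2⟩ := exists_fun hgxE
        obtain ⟨η, c1, c2, c3⟩ : ∃ η : Module.Dual (ZMod p) V, η x ≠ 0 ∧ η (g x) ≠ 0 ∧ ∀ y ∈ E, η y = 0 := by
          by_cases h1 : η1 (g x) = 0
          · by_cases h2 : η2 x = 0
            · exact ⟨η1 + η2, by simp [a1, h2], by simp [h1, a2], fun y hy => by simp [b1 y hy, b2 y hy]⟩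
            · exact ⟨η2, h2, by rw [a2]; exact one_ne_zero, b2⟩
          · exact ⟨η1, by rw [a1]; exact one_ne_zero, h1, b1⟩
        obtain ⟨z, hz, rfl⟩ := hP.exists_rep (φ := η) fun r hr => c3 r ((hmemE r).mpr (hgR r hr))
        exact ⟨z, hz, c1, c2, c3⟩
      obtain ⟨k1, hk1, a1, a2, a3, a4, a5⟩ := mover (g x) (x + e') (hgU x hx) (add_mem hx heU)
        (by rwa [map_add, LinearMap.add_apply, hb, zero_add]) fun y hy => by
          rw [map_sub, map_add, LinearMap.sub_apply, LinearMap.add_apply, heE y hy, add_zero]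
          conv_lhs => arg 2; rw [← (hmemE y).mp hy]
          rw [hgB, sub_self]
      obtain ⟨k2, hk2, b1, b2, b3, b4, b5⟩ := mover (x + e') x (add_mem hx heU) hx
        (by rw [map_add, hP.alt, zero_add, hP.skew e' x]; exact neg_ne_zero.mpr he1) fun y hy => by
          rw [show x - (x + e') = -e' by abel, map_neg, LinearMap.neg_apply, heE y hy, neg_zero]
      exact finish (k2 * k1) (mul_mem hk2 hk1) (by show k2 (k1 (g x)) = x; rw [a1, b1])
        (fun y hy => by show k2 (k1 y) = y; rw [a2 y hy, b2 y hy])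
        (fun y hy => by show k2 (k1 y) = y; rw [a3 y hy, b3 y hy])
        (fun y hy => b4 _ (a4 y hy)) (fun y w => (b5 _ _).trans (a5 y w))

/-- The elements fixing a subspace pointwise. -/
def fixer (W : Submodule (ZMod p) V) : Subgroup (V ≃ₗ[ZMod p] V) where
  carrier := {g | ∀ v ∈ W, g v = v}
  one_mem' := fun v _ => rfl
  mul_mem' := fun {g k} (hg : ∀ v ∈ W, g v = v) (hk : ∀ v ∈ W, k v = v) v hv => by
    show g (k v) = v
    rw [hk v hv, hg v hv]
  inv_mem' := fun {g} (hg : ∀ v ∈ W, g v = v) v hv => by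
    conv_lhs => rw [← hg v hv]
    exact LinearEquiv.symm_apply_apply g v

theorem factor_inf_eq_bot {n : ℕ} {U R : Fin n → Submodule (ZMod p) V} (hc : ∀ j, IsCompl (U j) (R j))
    (hperp : ∀ i j, i ≠ j → U i ≤ R j) (j : Fin n) :
    factor H (U j) (R j) ⊓ (⨆ i ∈ {i : Fin n | i ≠ j}, factor H (U i) (R i)) = ⊥ := by
  rw [Subgroup.eq_bot_iff_forall]
  intro x hx
  obtain ⟨hxj, hxo⟩ := Subgroup.mem_inf.mp hx
  have hle : (⨆ i ∈ {i : Fin n | i ≠ j}, factor H (U i) (R i)) ≤ fixer (U j) :=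
    iSup₂_le fun i hi g hg v hv => factor_fix hg v (hperp j i (Ne.symm hi) hv)
  have hfix : ∀ v ∈ U j, x v = v := hle hxo
  refine LinearEquiv.ext fun v => ?_
  obtain ⟨u, hu, r, hr, rfl⟩ := exists_parts (hc j) v
  rw [map_add, hfix u hu, factor_fix hxj r hr]
  rfl

/-- The decomposition theorem. -/
theorem decomposition (hp : p ≠ 2) (T : Set (V ≃ₗ[ZMod p] V))
    (hT : ∀ t ∈ T, ∃ a φ, a ≠ 0 ∧ φ ≠ 0 ∧ Tv H a φ ∧ ∀ x, t x = x + φ x • a) (hPt : Partner H) :
    ∃ (n : ℕ) (U R : Fin n → Submodule (ZMod p) V), 1 ≤ n ∧ (∀ j, IsCompl (U j) (R j)) ∧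
      (∀ i j, i ≠ j → U i ≤ R j) ∧ (∀ j, Shape H (U j) (R j)) ∧
      ∀ t ∈ T, ∃ j, t ∈ factor H (U j) (R j) := by
  classical
  haveI : Finite (Submodule (ZMod p) V) := Finite.of_injective (fun S => (S : Set V)) SetLike.coe_injective
  let ι : Type _ := {S : Submodule (ZMod p) V // ∃ R, Good H S R}
  obtain ⟨n, ⟨e⟩⟩ := Finite.exists_equiv_fin ι
  choose Rf hRf using fun i : ι => i.2
  let U : Fin (n + 1) → Submodule (ZMod p) V := Fin.snoc (fun i => (e.symm i).1) ⊥
  let R : Fin (n + 1) → Submodule (ZMod p) V := Fin.snoc (fun i => Rf (e.symm i)) ⊤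
  refine ⟨n + 1, U, R, by omega, fun j => ?_, fun i j hij => ?_, fun j => ?_, fun t ht => ?_⟩
  · induction j using Fin.lastCases with
    | last => simp only [U, R, Fin.snoc_last]; exact isCompl_bot_top
    | cast j => simp only [U, R, Fin.snoc_castSucc]; exact (hRf _).compl
  · induction i using Fin.lastCases with
    | last => simp only [U, Fin.snoc_last]; exact bot_le
    | cast i =>
      induction j using Fin.lastCases with
      | last => simp only [R, Fin.snoc_last]; exact le_top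
      | cast j =>
        simp only [U, R, Fin.snoc_castSucc]
        rcases (hRf (e.symm i)).eq_or_perp (hRf (e.symm j)) with ⟨h, -⟩ | ⟨h, -⟩
        · exact absurd (congrArg Fin.castSucc (e.symm.injective (Subtype.ext h))) hij
        · exact h
  · induction j using Fin.lastCases with
    | last =>
      simp only [U, R, Fin.snoc_last]
      exact Or.inl ⟨isCompl_bot_top, fun u hu φ _ _ => by
        rw [(Submodule.mem_bot _).mp hu]; exact tv_zero_left φ⟩
    | cast j => simp only [U, R, Fin.snoc_castSucc]; exact (hRf _).shape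
  · obtain ⟨a, φ, ha, hφ, htv, he⟩ := hT t ht
    obtain ⟨U0, R0, hgood, hin⟩ := exists_good hp hPt htv ha hφ
    refine ⟨(e ⟨U0, R0, hgood⟩).castSucc, ?_⟩
    simp only [U, R, Fin.snoc_castSucc, Equiv.symm_apply_apply]
    have hR0 : Rf ⟨U0, R0, hgood⟩ = R0 := by
      rcases (hRf ⟨U0, R0, hgood⟩).eq_or_perp hgood with ⟨-, h⟩ | ⟨h, -⟩
      · exact h
      · exact absurd ((Submodule.eq_bot_iff _).mpr fun u hu =>
          eq_zero_of_mem_both hgood.compl hu (h hu)) hgood.ne_bot
    rw [hR0]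
    exact mem_factor htv hin he

end Group

end CfsgLib.TvGenerated
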