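import Mathlib
import Cfsg.Agent.Subnormal.BaerSuzuki

/-!
Groups generated by transvections over a prime field: closure properties of the transvections in the group,
and the existence of a partner when the group has no normal `p`-subgroup.
-/

set_option autoImplicit false
set_option linter.style.haveILetI false
set_option linter.unusedSectionVars false

namespace CfsgLib.TvGenerated

variable {p : ℕ} [Fact p.Prime] {V : Type*} [AddCommGroup V] [Module (ZMod p) V]

/-- The transvection with centre `a` and functional `φ` lies in `H`. -/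
def Tv (H : Subgroup (V ≃ₗ[ZMod p] V)) (a : V) (φ : Module.Dual (ZMod p) V) : Prop :=
  φ a = 0 ∧ ∃ h ∈ H, ∀ x, h x = x + φ x • a

/-- Every transvection of `H` has one that it does not commute with in both ways. -/
def Partner (H : Subgroup (V ≃ₗ[ZMod p] V)) : Prop :=
  ∀ a φ, Tv H a φ → a ≠ 0 → φ ≠ 0 → ∃ b ψ, Tv H b ψ ∧ φ b ≠ 0 ∧ ψ a ≠ 0

variable {H : Subgroup (V ≃ₗ[ZMod p] V)}

theorem Tv.perp {a : V} {φ : Module.Dual (ZMod p) V} (h : Tv H a φ) : φ a = 0 := h.1

theorem tv_zero_left (φ : Module.Dual (ZMod p) V) : Tv H (0 : V) φ :=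
  ⟨map_zero φ, 1, one_mem H, fun x => by simp⟩

theorem tv_zero_right (a : V) : Tv H a (0 : Module.Dual (ZMod p) V) :=
  ⟨rfl, 1, one_mem H, fun x => by simp⟩

theorem Tv.add_right {a : V} {φ ψ : Module.Dual (ZMod p) V} (h : Tv H a φ) (h' : Tv H a ψ) :
    Tv H a (φ + ψ) := by
  obtain ⟨hφ, g, hg, eg⟩ := h
  obtain ⟨hψ, g', hg', eg'⟩ := h'
  refine ⟨by rw [LinearMap.add_apply, hφ, hψ, add_zero], g * g', mul_mem hg hg', fun x => ?_⟩
  show g (g' x) = _
  rw [eg, eg', map_add, map_smul, hφ, smul_zero, add_zero, LinearMap.add_apply, add_smul]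
  abel

theorem Tv.add_left {a b : V} {φ : Module.Dual (ZMod p) V} (h : Tv H a φ) (h' : Tv H b φ) :
    Tv H (a + b) φ := by
  obtain ⟨ha, g, hg, eg⟩ := h
  obtain ⟨hb, g', hg', eg'⟩ := h'
  refine ⟨by rw [map_add, ha, hb, add_zero], g * g', mul_mem hg hg', fun x => ?_⟩
  show g (g' x) = _
  rw [eg, eg', map_add, map_smul, hb, smul_zero, add_zero, smul_add]
  abel

theorem Tv.nsmul_right {a : V} {φ : Module.Dual (ZMod p) V} (h : Tv H a φ) (n : ℕ) : Tv H a (n • φ) := by
  induction n with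
  | zero => rw [zero_smul]; exact tv_zero_right a
  | succ n ih => rw [succ_nsmul]; exact ih.add_right h

theorem Tv.smul_right {a : V} {φ : Module.Dual (ZMod p) V} (h : Tv H a φ) (c : ZMod p) : Tv H a (c • φ) := by
  have := h.nsmul_right c.val
  rwa [← Nat.cast_smul_eq_nsmul (ZMod p), ZMod.natCast_zmod_val] at this

theorem Tv.of_smul_left {a : V} {φ : Module.Dual (ZMod p) V} {c : ZMod p}
    (h : Tv H (c • a) φ) : Tv H a (c • φ) := by
  obtain ⟨ha, g, hg, eg⟩ := h
  rw [map_smul, smul_eq_mul] at ha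
  refine ⟨by rw [LinearMap.smul_apply, smul_eq_mul, ha], g, hg, fun x => ?_⟩
  rw [eg, LinearMap.smul_apply, smul_eq_mul, smul_smul, mul_comm c]

theorem Tv.smul_left {a : V} {φ : Module.Dual (ZMod p) V} (h : Tv H a φ) (c : ZMod p) : Tv H (c • a) φ := by
  obtain ⟨ha, g, hg, eg⟩ := h.smul_right c
  refine ⟨by rw [map_smul, h.1, smul_zero], g, hg, fun x => ?_⟩
  rw [eg, LinearMap.smul_apply, smul_eq_mul, smul_smul, mul_comm c]

theorem Tv.neg_right {a : V} {φ : Module.Dual (ZMod p) V} (h : Tv H a φ) : Tv H a (-φ) := by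
  rw [← neg_one_smul (ZMod p) φ]; exact h.smul_right _

theorem Tv.sub_right {a : V} {φ ψ : Module.Dual (ZMod p) V} (h : Tv H a φ) (h' : Tv H a ψ) :
    Tv H a (φ - ψ) := by rw [sub_eq_add_neg]; exact h.add_right h'.neg_right

theorem Tv.sub_left {a b : V} {φ : Module.Dual (ZMod p) V} (h : Tv H a φ) (h' : Tv H b φ) :
    Tv H (a - b) φ := by
  rw [sub_eq_add_neg, ← neg_one_smul (ZMod p) b]; exact h.add_left (h'.smul_left _)

/-- Conjugation by a transvection of the group. -/
theorem Tv.move {a b : V} {φ ψ : Module.Dual (ZMod p) V} (h : Tv H a φ) (h' : Tv H b ψ) :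
    Tv H (a + ψ a • b) (φ - φ b • ψ) := by
  obtain ⟨ha, g, hg, eg⟩ := h
  obtain ⟨hb, k, hk, ek⟩ := h'
  refine ⟨?_, k * g * k⁻¹, mul_mem (mul_mem hk hg) (inv_mem hk), fun x => ?_⟩
  · simp only [LinearMap.sub_apply, LinearMap.smul_apply, map_add, map_smul, ha, hb, smul_eq_mul]
    ring
  · have hk' : (k⁻¹ : V ≃ₗ[ZMod p] V) x = x - ψ x • b := by
      have hinv : k (x - ψ x • b) = x := by
        rw [ek, map_sub, map_smul, hb, smul_zero, sub_zero, sub_add_cancel]
      calc (k⁻¹ : V ≃ₗ[ZMod p] V) x = (k⁻¹ : V ≃ₗ[ZMod p] V) (k (x - ψ x • b)) := by rw [hinv]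
        _ = _ := LinearEquiv.symm_apply_apply k _
    show k (g ((k⁻¹ : V ≃ₗ[ZMod p] V) x)) = _
    rw [hk', eg, ek]
    simp only [LinearMap.sub_apply, LinearMap.smul_apply, map_add, map_sub, map_smul, hb, smul_eq_mul]
    module

/-- The same with any power of the moving transvection. -/
theorem Tv.move' {a b : V} {φ ψ : Module.Dual (ZMod p) V} (h : Tv H a φ) (h' : Tv H b ψ) (c : ZMod p) :
    Tv H (a + (c * ψ a) • b) (φ - (c * φ b) • ψ) := by
  have := h.move (h'.smul_right c)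
  rwa [LinearMap.smul_apply, smul_eq_mul, smul_smul, mul_comm (φ b) c] at this

/-- Conjugation fixing the centre. -/
theorem Tv.move_fix_left {a b : V} {φ ψ : Module.Dual (ZMod p) V} (h : Tv H a φ) (h' : Tv H b ψ)
    (ha : ψ a = 0) (hb : φ b ≠ 0) : Tv H a ψ := by
  have h1 := h.move h'
  rw [ha, zero_smul, add_zero] at h1
  have h2 := (h.sub_right h1).smul_right (φ b)⁻¹
  rwa [sub_sub_cancel, inv_smul_smul₀ hb] at h2

/-- Conjugation fixing the functional. -/
theorem Tv.move_fix_right {a b : V} {φ ψ : Module.Dual (ZMod p) V} (h : Tv H a φ) (h' : Tv H b ψ)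
    (hb : φ b = 0) (ha : ψ a ≠ 0) : Tv H b φ := by
  have h1 := h.move h'
  rw [hb, zero_smul, sub_zero] at h1
  have h2 := (h1.sub_left h).smul_left (ψ a)⁻¹
  rwa [add_sub_cancel_left, inv_smul_smul₀ ha] at h2

section PGroup

/-- The unipotent elements of a flag, acting trivially from `span {a, a'}` up. -/
def flagGroup [Finite V] (a a' : V) : Subgroup (V ≃ₗ[ZMod p] V) where
  carrier := {g | (∀ x, g x - x ∈ Submodule.span (ZMod p) {a, a'}) ∧
    g a - a ∈ Submodule.span (ZMod p) {a'} ∧ g a' = a'}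
  one_mem' := ⟨fun x => by simp, by simp, rfl⟩
  mul_mem' := fun {g k} ⟨g1, g2, g3⟩ ⟨k1, k2, k3⟩ => by
    refine ⟨fun x => ?_, ?_, ?_⟩
    · show g (k x) - x ∈ _
      rw [← sub_add_sub_cancel (g (k x)) (k x) x]
      exact add_mem (g1 _) (k1 _)
    · obtain ⟨c, hc⟩ := Submodule.mem_span_singleton.mp k2
      show g (k a) - a ∈ _
      rw [show k a = a + c • a' by rw [hc]; abel, map_add, map_smul, g3, add_sub_right_comm]
      exact add_mem g2 (Submodule.smul_mem _ c (Submodule.mem_span_singleton_self a'))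
    · show g (k a') = a'
      rw [k3, g3]
  inv_mem' := fun {g} ⟨g1, g2, g3⟩ => by
    have h3 : (g⁻¹ : V ≃ₗ[ZMod p] V) a' = a' := by
      conv_lhs => rw [← g3]
      exact LinearEquiv.symm_apply_apply g _
    refine ⟨fun x => ?_, ?_, h3⟩
    · have h := neg_mem (g1 ((g⁻¹ : V ≃ₗ[ZMod p] V) x))
      rw [show g ((g⁻¹ : V ≃ₗ[ZMod p] V) x) = x from LinearEquiv.apply_symm_apply g x, neg_sub] at h
      exact h
    · obtain ⟨c, hc⟩ := Submodule.mem_span_singleton.mp g2
      have h : (g⁻¹ : V ≃ₗ[ZMod p] V) a = a - c • a' := by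
        have hga : g (a - c • a') = a := by rw [map_sub, map_smul, g3, hc]; abel
        calc (g⁻¹ : V ≃ₗ[ZMod p] V) a = (g⁻¹ : V ≃ₗ[ZMod p] V) (g (a - c • a')) := by rw [hga]
          _ = _ := LinearEquiv.symm_apply_apply g _
      rw [h, sub_sub_cancel_left]
      exact neg_mem (Submodule.smul_mem _ c (Submodule.mem_span_singleton_self a'))

theorem flagGroup_pow [Finite V] (hp : p ≠ 2) {a a' : V} {g : V ≃ₗ[ZMod p] V} (hg : g ∈ flagGroup a a') :
    g ^ p = 1 := by
  rcases subsingleton_or_nontrivial V with hV | hV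
  · exact LinearEquiv.ext fun x => Subsingleton.elim _ _
  haveI : CharP (Module.End (ZMod p) V) p := charP_of_injective_algebraMap
    (algebraMap (ZMod p) (Module.End (ZMod p) V)).injective p
  obtain ⟨g1, g2, g3⟩ := hg
  set G : Module.End (ZMod p) V := g.toLinearMap with hG
  have hN : (G - 1) ^ 3 = 0 := by
    refine LinearMap.ext fun x => ?_
    obtain ⟨s, t, hst⟩ := Submodule.mem_span_pair.mp (g1 x)
    obtain ⟨c, hc⟩ := Submodule.mem_span_singleton.mp g2
    have e1 : (G - 1) a = c • a' := hc.symm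
    have e2 : (G - 1) a' = 0 := sub_eq_zero.mpr g3
    have e0 : (G - 1) x = s • a + t • a' := hst.symm
    rw [pow_succ, pow_succ, pow_one, Module.End.mul_apply, Module.End.mul_apply, e0, map_add, map_smul,
      map_smul, e1, e2, smul_zero, add_zero, map_smul, map_smul, e2, smul_zero, smul_zero]
    rfl
  have h2 : 2 ≤ p := (Fact.out : p.Prime).two_le
  have h := sub_pow_char_of_commute (R := Module.End (ZMod p) V) p (x := G) (y := 1) (Commute.one_right G)
  have h0 : (G - 1) ^ p = 0 := pow_eq_zero_of_le (by omega) hN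
  rw [one_pow, h0] at h
  refine LinearEquiv.toLinearMap_injective ?_
  rw [show ((g ^ p : V ≃ₗ[ZMod p] V)).toLinearMap = G ^ p from
    map_pow (LinearEquiv.automorphismGroup.toLinearMapMonoidHom) g p, sub_eq_zero.mp h.symm]
  rfl

variable [Finite V]

theorem finite_autos : Finite (V ≃ₗ[ZMod p] V) :=
  Finite.of_injective (fun g => (g : V → V)) DFunLike.coe_injective

theorem isPGroup_pair (hp : p ≠ 2) {a a' : V} {φ φ' : Module.Dual (ZMod p) V} {t t' : V ≃ₗ[ZMod p] V}
    (ht : ∀ x, t x = x + φ x • a) (ht' : ∀ x, t' x = x + φ' x • a') (ha : φ a = 0) (ha' : φ' a' = 0)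
    (h : φ a' = 0) : ∀ g ∈ Subgroup.closure ({t, t'} : Set (V ≃ₗ[ZMod p] V)), g ^ p = 1 := by
  refine fun g hg => flagGroup_pow hp (a := a) (a' := a') ((Subgroup.closure_le _).mpr ?_ hg)
  rintro k (rfl | rfl)
  · exact ⟨fun x => by rw [ht, add_sub_cancel_left]; exact Submodule.smul_mem _ _ (Submodule.subset_span (by simp)),
      by rw [ht, ha, zero_smul, add_zero, sub_self]; exact zero_mem _,
      by rw [ht, h, zero_smul, add_zero]⟩
  · exact ⟨fun x => by rw [ht', add_sub_cancel_left]; exact Submodule.smul_mem _ _ (Submodule.subset_span (by simp)),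
      by rw [ht', add_sub_cancel_left]; exact Submodule.smul_mem _ _ (Submodule.mem_span_singleton_self _),
      by rw [ht', ha', zero_smul, add_zero]⟩

theorem partner_of_pCore (hp : p ≠ 2) (hOp : Cfsg.pCore p ↥H = ⊥) : Partner H := by
  intro a φ ⟨ha, t, htH, ht⟩ ha0 hφ0
  haveI := finite_autos (p := p) (V := V)
  by_contra hno
  push Not at hno
  have hmem : (⟨t, htH⟩ : H) ∈ Cfsg.pCore p ↥H := by
    refine CfsgLib.Subnormal.mem_pCore_of_forall_isPGroup fun g => fun k => ⟨1, ?_⟩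
    set g' : V ≃ₗ[ZMod p] V := (g : V ≃ₗ[ZMod p] V) with hg'
    have hbc : ∀ x, (g' * t * g'⁻¹) x = x + (φ.comp (g'⁻¹ : V ≃ₗ[ZMod p] V).toLinearMap) x • g' a := fun x => by
      show g' (t ((g'⁻¹ : V ≃ₗ[ZMod p] V) x)) = _
      rw [ht, map_add, map_smul, show g' ((g'⁻¹ : V ≃ₗ[ZMod p] V) x) = x from LinearEquiv.apply_symm_apply g' x]
      rfl
    have hperp : (φ.comp (g'⁻¹ : V ≃ₗ[ZMod p] V).toLinearMap) (g' a) = 0 := by
      show φ ((g'⁻¹ : V ≃ₗ[ZMod p] V) (g' a)) = 0
      rw [show (g'⁻¹ : V ≃ₗ[ZMod p] V) (g' a) = a from LinearEquiv.symm_apply_apply g' a, ha]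
    have hTv : Tv H (g' a) (φ.comp (g'⁻¹ : V ≃ₗ[ZMod p] V).toLinearMap) :=
      ⟨hperp, g' * t * g'⁻¹, mul_mem (mul_mem g.2 htH) (inv_mem g.2), hbc⟩
    have hle : ((k : H) : V ≃ₗ[ZMod p] V) ∈
        Subgroup.closure ({t, g' * t * g'⁻¹} : Set (V ≃ₗ[ZMod p] V)) := by
      have h1 := Subgroup.mem_map_of_mem H.subtype k.2
      rw [MonoidHom.map_closure, Set.image_pair] at h1
      exact h1
    have hpow : ((k : H) : V ≃ₗ[ZMod p] V) ^ p = 1 := by
      by_cases hb : φ (g' a) = 0
      · exact isPGroup_pair hp ht hbc ha hperp hb _ hle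
      · rw [Set.pair_comm] at hle
        exact isPGroup_pair hp hbc ht hperp ha (hno _ _ hTv hb) _ hle
    exact Subtype.ext (Subtype.ext (by simpa using hpow))
  rw [hOp, Subgroup.mem_bot, Subgroup.mk_eq_one] at hmem
  obtain ⟨x, hx⟩ : ∃ x, φ x ≠ 0 := by
    by_contra h
    push Not at h
    exact hφ0 (LinearMap.ext h)
  have := ht x
  rw [hmem] at this
  exact smul_ne_zero hx ha0 (by simpa using this)

/-- An element of order `p` fixing a hyperplane is a transvection. -/
theorem exists_tv {t : V ≃ₗ[ZMod p] V} (ht : t ∈ H) (ho : orderOf t = p)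
    (hd : Module.finrank (ZMod p) ↥(LinearMap.ker ((t : V →ₗ[ZMod p] V) - LinearMap.id)) + 1 =
      Module.finrank (ZMod p) V) :
    ∃ a φ, a ≠ 0 ∧ φ ≠ 0 ∧ Tv H a φ ∧ ∀ x, t x = x + φ x • a := by
  set N : V →ₗ[ZMod p] V := (t : V →ₗ[ZMod p] V) - LinearMap.id with hN
  have hr : Module.finrank (ZMod p) (LinearMap.range N) = 1 := by
    have := N.finrank_range_add_finrank_ker
    omega
  obtain ⟨a, ha, hspan⟩ : ∃ a : V, a ≠ 0 ∧ LinearMap.range N = Submodule.span (ZMod p) {a} := by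
    obtain ⟨a, haN, ha⟩ := Submodule.exists_mem_ne_zero_of_ne_bot (p := LinearMap.range N) fun h => by
      rw [h, finrank_bot] at hr
      omega
    refine ⟨a, ha, (Submodule.eq_of_le_of_finrank_le ?_ ?_).symm⟩
    · rwa [Submodule.span_singleton_le_iff_mem]
    · rw [hr, finrank_span_singleton ha]
  have hNx : ∀ x, N x ∈ Submodule.span (ZMod p) {a} := fun x => hspan ▸ LinearMap.mem_range_self N x
  obtain ⟨ξ, hξ, -⟩ := Submodule.exists_dual_map_eq_bot_of_notMem (p := (⊥ : Submodule (ZMod p) V)) (x := a)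
    (by simpa using ha) inferInstance
  set φ : Module.Dual (ZMod p) V := (ξ a)⁻¹ • ξ.comp N with hφ
  have htx : ∀ x, t x = x + φ x • a := by
    intro x
    obtain ⟨c, hc⟩ := Submodule.mem_span_singleton.mp (hNx x)
    have e : φ x = c := by
      rw [hφ, LinearMap.smul_apply, LinearMap.comp_apply, ← hc, map_smul, smul_eq_mul, smul_eq_mul]
      field_simp
    rw [e, hc, hN]
    simp
  have ha1 : φ a = 0 := by
    have hpow : ∀ n : ℕ, (t ^ n) a = (1 + φ a) ^ n • a := by
      intro n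
      induction n with
      | zero => simp
      | succ n ih =>
        rw [pow_succ', pow_succ]
        show t ((t ^ n) a) = _
        rw [ih, map_smul, htx, smul_add, smul_smul, mul_add, mul_one, add_smul]
    have h := hpow p
    have h1 : t ^ p = 1 := orderOf_dvd_iff_pow_eq_one.mp (dvd_of_eq ho)
    rw [h1, ZMod.pow_card] at h
    have h' : (1 : ZMod p) • a = (1 + φ a) • a := by rw [one_smul]; exact h
    have := smul_left_injective (ZMod p) ha h'
    simpa using this.symm
  refine ⟨a, φ, ha, fun h => ?_, ⟨ha1, t, ht, htx⟩, htx⟩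
  have ht1 : t = 1 := LinearEquiv.ext fun x => by simp [htx, h]
  rw [ht1, orderOf_one] at ho
  exact (Fact.out : p.Prime).one_lt.ne ho

end PGroup

end CfsgLib.TvGenerated
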