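import Cfsg.Agent.TvGenerated.Basic

/-!
Special linear and symplectic pieces of a group generated by transvections, and how they grow.
-/

set_option autoImplicit false
set_option linter.style.haveILetI false
set_option linter.unusedSectionVars false

namespace CfsgLib.TvGenerated

variable {p : ℕ} [Fact p.Prime] {V : Type*} [AddCommGroup V] [Module (ZMod p) V] [Finite V]

local notation "D" => Module.Dual (ZMod p) V
local notation "Subm" => Submodule (ZMod p) V

/-- All transvections of the decomposition `V = U ⊕ R` acting on `U` only. -/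
structure SLP (H : Subgroup (V ≃ₗ[ZMod p] V)) (U R : Subm) : Prop where
  compl : IsCompl U R
  tv : ∀ u ∈ U, ∀ φ : D, φ u = 0 → (∀ r ∈ R, φ r = 0) → Tv H u φ

/-- All transvections of an alternating form living on `U`. -/
structure SpP (H : Subgroup (V ≃ₗ[ZMod p] V)) (U R : Subm) (B : V →ₗ[ZMod p] D) : Prop where
  compl : IsCompl U R
  alt : ∀ x, B x x = 0
  rad : ∀ r ∈ R, B r = 0
  nd : ∀ u ∈ U, u ≠ 0 → ∃ w ∈ U, B u w ≠ 0
  tv : ∀ u ∈ U, Tv H u (B u)

/-- The transvection acts on `U` only. -/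
def Inside (U R : Subm) (a : V) (φ : D) : Prop := a ∈ U ∧ ∀ r ∈ R, φ r = 0

/-- The transvection acts on `R` only. -/
def Outside (U R : Subm) (a : V) (φ : D) : Prop := a ∈ R ∧ ∀ u ∈ U, φ u = 0

/-- Every transvection acts on one of the two summands only. -/
def Split (H : Subgroup (V ≃ₗ[ZMod p] V)) (U R : Subm) : Prop :=
  ∀ a φ, Tv H a φ → a ≠ 0 → φ ≠ 0 → Inside U R a φ ∨ Outside U R a φ

variable {H : Subgroup (V ≃ₗ[ZMod p] V)} {U R : Submodule (ZMod p) V}

theorem eq_zero_of_mem_both (hc : IsCompl U R) {x : V} (h : x ∈ U) (h' : x ∈ R) : x = 0 :=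
  (Submodule.mem_bot _).mp (hc.disjoint.eq_bot ▸ Submodule.mem_inf.mpr ⟨h, h'⟩)

theorem exists_parts (hc : IsCompl U R) (a : V) : ∃ u ∈ U, ∃ r ∈ R, a = u + r := by
  obtain ⟨u, r, h, -⟩ := Submodule.existsUnique_add_of_isCompl hc a
  exact ⟨u, u.2, r, r.2, h.symm⟩

theorem exists_fun_parts (hc : IsCompl U R) (φ : D) :
    ∃ φ₀ ρ : D, φ = φ₀ + ρ ∧ (∀ r ∈ R, φ₀ r = 0) ∧ ∀ u ∈ U, ρ u = 0 := by
  refine ⟨φ.comp (U.projection R hc), φ - φ.comp (U.projection R hc), by abel, fun r hr => ?_, fun u hu => ?_⟩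
  · rw [LinearMap.comp_apply, Submodule.projection_apply_of_mem_right hc hr, map_zero]
  · rw [LinearMap.sub_apply, LinearMap.comp_apply,
      show U.projection R hc u = u from Submodule.projection_apply_left hc ⟨u, hu⟩, sub_self]

theorem fun_ext (hc : IsCompl U R) {φ ψ : D} (hU : ∀ u ∈ U, φ u = ψ u) (hR : ∀ r ∈ R, φ r = ψ r) : φ = ψ := by
  refine LinearMap.ext fun x => ?_
  obtain ⟨u, hu, r, hr, rfl⟩ := exists_parts hc x
  rw [map_add, map_add, hU u hu, hR r hr]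

theorem exists_fun {S : Subm} {x : V} (h : x ∉ S) : ∃ η : D, η x = 1 ∧ ∀ y ∈ S, η y = 0 := by
  obtain ⟨g, hg, hS⟩ := Submodule.exists_dual_map_eq_bot_of_notMem h inferInstance
  refine ⟨(g x)⁻¹ • g, inv_mul_cancel₀ hg, fun y hy => ?_⟩
  have : g y ∈ S.map g := Submodule.mem_map_of_mem hy
  rw [hS, Submodule.mem_bot] at this
  rw [LinearMap.smul_apply, this, smul_zero]

theorem exists_fun_U (hc : IsCompl U R) {S : Subm} (hS : S ≤ U) {x : V} (hx : x ∈ U) (h : x ∉ S) :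
    ∃ η : D, η x = 1 ∧ (∀ y ∈ S, η y = 0) ∧ ∀ r ∈ R, η r = 0 := by
  obtain ⟨η, h1, h2⟩ := exists_fun (S := S ⊔ R) (x := x) fun hm => by
    obtain ⟨s, hs, r, hr, hsr⟩ := Submodule.mem_sup.mp hm
    have : r = 0 := eq_zero_of_mem_both hc (by
      rw [show r = x - s by rw [← hsr]; abel]; exact sub_mem hx (hS hs)) hr
    rw [this, add_zero] at hsr
    exact h (hsr ▸ hs)
  exact ⟨η, h1, fun y hy => h2 y (Submodule.mem_sup_left hy), fun r hr => h2 r (Submodule.mem_sup_right hr)⟩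

theorem exists_ne_span (hdim : 2 ≤ Module.finrank (ZMod p) U) (a : V) :
    ∃ u ∈ U, u ∉ Submodule.span (ZMod p) {a} := by
  by_contra h
  push Not at h
  have := (Submodule.finrank_mono (R := ZMod p) h).trans (finrank_span_le_card ({a} : Set V))
  simp at this
  omega

theorem exists_ne_pair (hdim : 3 ≤ Module.finrank (ZMod p) U) (a b : V) :
    ∃ u ∈ U, u ∉ Submodule.span (ZMod p) {a, b} := by
  classical
  by_contra h
  push Not at h
  have h1 := Submodule.finrank_mono (R := ZMod p) h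
  have h2 : Module.finrank (ZMod p) (Submodule.span (ZMod p) {a, b}) ≤ 2 := by
    refine le_trans ?_ (Finset.card_le_two (a := a) (b := b))
    have := finrank_span_finset_le_card (R := ZMod p) ({a, b} : Finset V)
    rwa [Finset.coe_insert, Finset.coe_singleton] at this
  omega

/-- The functional of a transvection inside is non-zero on `U`. -/
theorem exists_apply_ne (hc : IsCompl U R) {φ : D} (hφR : ∀ r ∈ R, φ r = 0) (h : φ ≠ 0) :
    ∃ u ∈ U, φ u ≠ 0 := by
  by_contra hn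
  push Not at hn
  exact h (fun_ext hc (by simpa using hn) (by simpa using hφR))

section SL

variable (hP : SLP H U R)

include hP

/-- Growing a special linear piece along a transvection pairing `R` with itself. -/
theorem SLP.grow (hdim : 2 ≤ Module.finrank (ZMod p) U) {a0 r : V} {φ0 ρ : D}
    (h : Tv H (a0 + r) (φ0 + ρ)) (ha0 : a0 ∈ U) (hr : r ∈ R) (hφ0 : ∀ x ∈ R, φ0 x = 0)
    (hρ : ∀ u ∈ U, ρ u = 0) (hk : ρ r ≠ 0) :
    SLP H (U ⊔ Submodule.span (ZMod p) {r}) (R ⊓ LinearMap.ker ρ) := by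
  have hc := hP.compl
  have hsum : φ0 a0 + ρ r = 0 := by
    have := h.perp
    rwa [LinearMap.add_apply, map_add, map_add, hρ a0 ha0, hφ0 r hr, add_zero, zero_add] at this
  have hφa : φ0 a0 ≠ 0 := fun e => hk (by rwa [e, zero_add] at hsum)
  have hφn : φ0 ≠ 0 := fun e => hφa (by rw [e]; rfl)
  have ha0n : a0 ≠ 0 := fun e => hφa (by rw [e, map_zero])
  -- transvections with centre `r`
  have hr1 : ∀ δ : D, (∀ x ∈ R, δ x = 0) → δ a0 = 0 → Tv H r δ := by
    intro δ hδR hδa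
    have h1 := hP.tv a0 ha0 δ hδa hδR
    have h2 : Tv H (a0 + r) δ := by
      refine h.move_fix_left h1 (by rw [map_add, hδa, hδR r hr, add_zero]) ?_
      rw [LinearMap.add_apply, hρ a0 ha0, add_zero]; exact hφa
    simpa using h2.sub_left h1
  have hrall : ∀ δ : D, (∀ x ∈ R, δ x = 0) → Tv H r δ := by
    intro δ hδR
    obtain ⟨u1, hu1, hu1'⟩ := exists_ne_span hdim a0
    obtain ⟨δ1, hδ1, hδ1a, hδ1R⟩ := exists_fun_U hc (S := Submodule.span (ZMod p) {a0})
      (by rwa [Submodule.span_singleton_le_iff_mem]) hu1 hu1'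
    have hδ1r := hr1 δ1 hδ1R (hδ1a a0 (Submodule.mem_span_singleton_self a0))
    by_cases hex : ∃ u ∈ U, δ u = 0 ∧ δ1 u ≠ 0
    · obtain ⟨u, hu, hδu, hδ1u⟩ := hex
      exact hδ1r.move_fix_left (hP.tv u hu δ hδu hδR) (hδR r hr) hδ1u
    push Not at hex
    have e : δ = δ u1 • δ1 := by
      refine fun_ext hc (fun u hu => ?_) (fun x hx => by simp [hδR x hx, hδ1R x hx])
      by_cases hd : δ u1 = 0
      · exact absurd (hex u1 hu1 hd) (by rw [hδ1]; exact one_ne_zero)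
      · have := hex (u - (δ u / δ u1) • u1) (sub_mem hu (U.smul_mem _ hu1))
          (by rw [map_sub, map_smul, smul_eq_mul, div_mul_cancel₀ _ hd, sub_self])
        rw [map_sub, map_smul, hδ1, smul_eq_mul, mul_one, sub_eq_zero] at this
        rw [LinearMap.smul_apply, smul_eq_mul, this, mul_div_cancel₀ _ hd]
    rw [e]; exact hδ1r.smul_right _
  -- transvections with functional `ρ`
  have hρ1 : ∀ u ∈ U, φ0 u = 0 → Tv H u ρ := by
    intro u hu hφu
    by_cases hd : a0 ∈ Submodule.span (ZMod p) {u}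
    · obtain ⟨l, hl⟩ := Submodule.mem_span_singleton.mp hd
      exact absurd (by rw [← hl, map_smul, hφu, smul_zero]) hφa
    obtain ⟨η, hη, hηS, hηR⟩ := exists_fun_U hc (S := Submodule.span (ZMod p) {u})
      (by rwa [Submodule.span_singleton_le_iff_mem]) ha0 hd
    have h1 := h.move_fix_right (hP.tv u hu η (hηS u (Submodule.mem_span_singleton_self u)) hηR)
      (by rw [LinearMap.add_apply, hφu, hρ u hu, add_zero])
      (by rw [map_add, hη, hηR r hr, add_zero]; exact one_ne_zero)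
    simpa using h1.sub_right (hP.tv u hu φ0 hφu hφ0)
  have hρall : ∀ u ∈ U, Tv H u ρ := by
    intro u hu
    obtain ⟨u1, hu1, hu1'⟩ := exists_ne_span hdim a0
    set w := u1 - (φ0 u1 / φ0 a0) • a0 with hw
    have hwU : w ∈ U := sub_mem hu1 (U.smul_mem _ ha0)
    have hφw : φ0 w = 0 := by rw [hw, map_sub, map_smul, smul_eq_mul, div_mul_cancel₀ _ hφa, sub_self]
    have hw0 : w ≠ 0 := fun e => hu1' (Submodule.mem_span_singleton.mpr ⟨_, (sub_eq_zero.mp e).symm⟩)
    have hwρ := hρ1 w hwU hφw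
    by_cases hd : w ∈ Submodule.span (ZMod p) {u}
    · obtain ⟨l, hl⟩ := Submodule.mem_span_singleton.mp hd
      have hl0 : l ≠ 0 := fun e => hw0 (by rw [← hl, e, zero_smul])
      rw [show u = l⁻¹ • w by rw [← hl, inv_smul_smul₀ hl0]]
      exact hwρ.smul_left _
    obtain ⟨η, hη, hηS, hηR⟩ := exists_fun_U hc (S := Submodule.span (ZMod p) {u})
      (by rwa [Submodule.span_singleton_le_iff_mem]) hwU hd
    exact hwρ.move_fix_right (hP.tv u hu η (hηS u (Submodule.mem_span_singleton_self u)) hηR) (hρ u hu)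
      (by rw [hη]; exact one_ne_zero)
  refine ⟨⟨disjoint_iff.mpr ((Submodule.eq_bot_iff _).mpr fun x hx => ?_),
    codisjoint_iff.mpr (eq_top_iff.mpr fun x _ => ?_)⟩, fun x hx ψ hψx hψR => ?_⟩
  · obtain ⟨u, hu, q, hq, rfl⟩ := Submodule.mem_sup.mp (Submodule.mem_inf.mp hx).1
    obtain ⟨l, rfl⟩ := Submodule.mem_span_singleton.mp hq
    obtain ⟨hxR, hxρ⟩ := Submodule.mem_inf.mp (Submodule.mem_inf.mp hx).2
    rw [LinearMap.mem_ker, map_add, map_smul, hρ u hu, zero_add, smul_eq_mul, mul_eq_zero,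
      or_iff_left hk] at hxρ
    rw [hxρ, zero_smul, add_zero] at hxR ⊢
    exact eq_zero_of_mem_both hc hu hxR
  · obtain ⟨u, hu, y, hy, rfl⟩ := exists_parts hc x
    refine Submodule.mem_sup.mpr ⟨u + (ρ y / ρ r) • r, add_mem (Submodule.mem_sup_left hu)
      (Submodule.mem_sup_right (Submodule.smul_mem _ _ (Submodule.mem_span_singleton_self r))),
      y - (ρ y / ρ r) • r, Submodule.mem_inf.mpr ⟨sub_mem hy (R.smul_mem _ hr), LinearMap.mem_ker.mpr ?_⟩, by abel⟩
    rw [map_sub, map_smul, smul_eq_mul, div_mul_cancel₀ _ hk, sub_self]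
  · obtain ⟨u, hu, q, hq, rfl⟩ := Submodule.mem_sup.mp hx
    obtain ⟨l, rfl⟩ := Submodule.mem_span_singleton.mp hq
    obtain ⟨ψ0, ρ', rfl, hψ0, hρ'⟩ := exists_fun_parts hc ψ
    obtain ⟨c, rfl⟩ : ∃ c, ρ' = c • ρ := by
      refine ⟨ρ' r / ρ r, ?_⟩
      refine fun_ext hc (fun y hy => by rw [LinearMap.smul_apply, hρ y hy, hρ' y hy, smul_zero]) fun y hy => ?_
      have h0 := hψR (y - (ρ y / ρ r) • r) (Submodule.mem_inf.mpr ⟨sub_mem hy (R.smul_mem _ hr),
        LinearMap.mem_ker.mpr (by rw [map_sub, map_smul, smul_eq_mul, div_mul_cancel₀ _ hk, sub_self])⟩)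
      rw [LinearMap.add_apply, hψ0 _ (sub_mem hy (R.smul_mem _ hr)), zero_add, map_sub, map_smul,
        smul_eq_mul, sub_eq_zero] at h0
      rw [LinearMap.smul_apply, smul_eq_mul, h0]
      field_simp
    rw [LinearMap.add_apply, LinearMap.smul_apply, map_add, map_add, map_smul, map_smul, hψ0 r hr,
      hρ u hu, zero_add, smul_zero, add_zero, smul_eq_mul, smul_eq_mul] at hψx
    by_cases hl : l = 0
    · subst hl
      rw [zero_smul, add_zero]
      rw [zero_mul, mul_zero, add_zero] at hψx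
      exact (hP.tv u hu ψ0 hψx hψ0).add_right ((hρall u hu).smul_right _)
    · have hψu : ψ0 (l⁻¹ • u) = -(c * ρ r) := by
        rw [map_smul, smul_eq_mul]
        field_simp
        linear_combination hψx
      have h1 := (hrall ψ0 hψ0).move ((hρall (l⁻¹ • u) (U.smul_mem _ hu)).smul_right (ρ r)⁻¹)
      rw [LinearMap.smul_apply, smul_eq_mul, inv_mul_cancel₀ hk, one_smul, hψu, smul_smul] at h1
      have h2 := h1.smul_left l
      rw [smul_add, smul_inv_smul₀ hl, add_comm (l • r) u] at h2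
      convert h2 using 2
      rw [sub_eq_add_neg, ← neg_smul]
      congr 2
      field_simp

/-- A transvection from `R` with functional on `U` produces a pairing transvection. -/
theorem SLP.exists_pairing_of_right (hPt : Partner H) {r : V} {δ : D} (h : Tv H r δ) (hr : r ∈ R)
    (hr0 : r ≠ 0) (hδ : δ ≠ 0) (hδR : ∀ x ∈ R, δ x = 0) :
    ∃ a0 ∈ U, ∃ r' ∈ R, ∃ φ0 ρ : D, Tv H (a0 + r') (φ0 + ρ) ∧ (∀ x ∈ R, φ0 x = 0) ∧ (∀ u ∈ U, ρ u = 0) ∧
      ρ r' ≠ 0 := by
  have hc := hP.compl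
  obtain ⟨c, χ, hcχ, hδc, hχr⟩ := hPt r δ h hr0 hδ
  obtain ⟨c0, hc0, rc, hrc, rfl⟩ := exists_parts hc c
  obtain ⟨χ0, ρ, rfl, hχ0, hρ⟩ := exists_fun_parts hc χ
  rw [map_add, hδR rc hrc, add_zero] at hδc
  rw [LinearMap.add_apply, hχ0 r hr, zero_add] at hχr
  have hperp : χ0 c0 + ρ rc = 0 := by
    have := hcχ.perp
    rwa [LinearMap.add_apply, map_add, map_add, hρ c0 hc0, hχ0 rc hrc, add_zero, zero_add] at this
  by_cases hk : ρ rc = 0
  swap
  · exact ⟨c0, hc0, rc, hrc, χ0, ρ, hcχ, hχ0, hρ, hk⟩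
  have h1 := hcχ.move h
  rw [map_add δ, hδR rc hrc, add_zero, LinearMap.add_apply, hχ0 r hr, zero_add, add_assoc,
    add_sub_right_comm] at h1
  refine ⟨c0, hc0, rc + δ c0 • r, add_mem hrc (R.smul_mem _ hr), χ0 - ρ r • δ, ρ, h1,
    fun x hx => by simp [hχ0 x hx, hδR x hx], hρ, ?_⟩
  rw [map_add, map_smul, hk, zero_add, smul_eq_mul]
  exact mul_ne_zero hδc hχr

/-- A transvection from `U` with functional on `R` produces a pairing transvection. -/
theorem SLP.exists_pairing_of_left (hPt : Partner H) {u : V} {ρ : D} (h : Tv H u ρ) (hu : u ∈ U)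
    (hu0 : u ≠ 0) (hρ0 : ρ ≠ 0) (hρ : ∀ x ∈ U, ρ x = 0) :
    ∃ a0 ∈ U, ∃ r' ∈ R, ∃ φ0 σ : D, Tv H (a0 + r') (φ0 + σ) ∧ (∀ x ∈ R, φ0 x = 0) ∧ (∀ u ∈ U, σ u = 0) ∧
      σ r' ≠ 0 := by
  have hc := hP.compl
  obtain ⟨c, χ, hcχ, hρc, hχu⟩ := hPt u ρ h hu0 hρ0
  obtain ⟨c0, hc0, rc, hrc, rfl⟩ := exists_parts hc c
  obtain ⟨χ0, σ, rfl, hχ0, hσ⟩ := exists_fun_parts hc χ
  rw [map_add, hρ c0 hc0, zero_add] at hρc
  rw [LinearMap.add_apply, hσ u hu, add_zero] at hχu
  have hperp : χ0 c0 + σ rc = 0 := by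
    have := hcχ.perp
    rwa [LinearMap.add_apply, map_add, map_add, hσ c0 hc0, hχ0 rc hrc, add_zero, zero_add] at this
  by_cases hk : σ rc = 0
  swap
  · exact ⟨c0, hc0, rc, hrc, χ0, σ, hcχ, hχ0, hσ, hk⟩
  have h1 := hcχ.move h
  rw [map_add ρ, hρ c0 hc0, zero_add, LinearMap.add_apply, hσ u hu, add_zero, add_right_comm,
    add_sub_assoc] at h1
  refine ⟨c0 + ρ rc • u, add_mem hc0 (U.smul_mem _ hu), rc, hrc, χ0, σ - χ0 u • ρ, h1, hχ0,
    fun x hx => by simp [hσ x hx, hρ x hx], ?_⟩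
  rw [LinearMap.sub_apply, LinearMap.smul_apply, hk, zero_sub, neg_ne_zero, smul_eq_mul]
  exact mul_ne_zero hχu hρc

/-- A special linear piece of dimension at least three grows or splits every transvection. -/
theorem SLP.split_or_grow (hPt : Partner H) (hdim : 3 ≤ Module.finrank (ZMod p) U) :
    Split H U R ∨ ∃ r ∈ R, ∃ ρ : D, ρ r ≠ 0 ∧ (∀ u ∈ U, ρ u = 0) ∧
      SLP H (U ⊔ Submodule.span (ZMod p) {r}) (R ⊓ LinearMap.ker ρ) := by
  have hc := hP.compl
  rw [or_iff_not_imp_right]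
  intro hno a φ h ha hφ
  have hgrow : ¬ ∃ a0 ∈ U, ∃ r' ∈ R, ∃ φ0 ρ : D, Tv H (a0 + r') (φ0 + ρ) ∧ (∀ x ∈ R, φ0 x = 0) ∧
      (∀ u ∈ U, ρ u = 0) ∧ ρ r' ≠ 0 := by
    rintro ⟨a0, ha0, r', hr', φ0, ρ, ht, h1, h2, h3⟩
    exact hno ⟨r', hr', ρ, h3, h2, hP.grow (by omega) ht ha0 hr' h1 h2 h3⟩
  obtain ⟨a0, ha0, r, hr, rfl⟩ := exists_parts hc a
  obtain ⟨φ0, ρ, rfl, hφ0, hρ⟩ := exists_fun_parts hc φ
  have hperp : φ0 a0 + ρ r = 0 := by
    have := h.perp
    rwa [LinearMap.add_apply, map_add, map_add, hρ a0 ha0, hφ0 r hr, add_zero, zero_add] at this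
  by_cases hA : a0 = 0
  · by_cases hΦ : φ0 = 0
    · exact Or.inr ⟨by rwa [hA, zero_add], fun u hu => by rw [hΦ, zero_add]; exact hρ u hu⟩
    exfalso
    rw [hA, zero_add] at h ha
    obtain ⟨u, hu, hφu⟩ := exists_apply_ne hc hφ0 hΦ
    obtain ⟨w, hw, hw'⟩ := exists_ne_span (by omega : 2 ≤ Module.finrank (ZMod p) U) u
    obtain ⟨η, hη, hηS, hηR⟩ := exists_fun_U hc (S := Submodule.span (ZMod p) {u})
      (by rwa [Submodule.span_singleton_le_iff_mem]) hw hw'
    exact hgrow (hP.exists_pairing_of_right hPt (h.move_fix_left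
      (hP.tv u hu η (hηS u (Submodule.mem_span_singleton_self u)) hηR) (hηR r hr)
      (by rwa [LinearMap.add_apply, hρ u hu, add_zero])) hr ha (fun e => by simp [e] at hη) hηR)
  by_cases hΦ : φ0 = 0
  · exfalso
    rw [hΦ, zero_add] at h hφ
    obtain ⟨u, hu, hu'⟩ := exists_ne_span (by omega : 2 ≤ Module.finrank (ZMod p) U) a0
    have hd : a0 ∉ Submodule.span (ZMod p) {u} := fun hm => by
      obtain ⟨l, hl⟩ := Submodule.mem_span_singleton.mp hm
      have hl0 : l ≠ 0 := fun e => hA (by rw [← hl, e, zero_smul])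
      exact hu' (Submodule.mem_span_singleton.mpr ⟨l⁻¹, by rw [← hl, inv_smul_smul₀ hl0]⟩)
    obtain ⟨η, hη, hηS, hηR⟩ := exists_fun_U hc (S := Submodule.span (ZMod p) {u})
      (by rwa [Submodule.span_singleton_le_iff_mem]) ha0 hd
    refine hgrow (hP.exists_pairing_of_left hPt (h.move_fix_right
      (hP.tv u hu η (hηS u (Submodule.mem_span_singleton_self u)) hηR) (hρ u hu)
      (by rw [map_add, hη, hηR r hr, add_zero]; exact one_ne_zero)) hu ?_ hφ hρ)
    exact fun e => hu' (e ▸ zero_mem _)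
  have hk : ρ r = 0 := by
    by_contra hk
    exact hgrow ⟨a0, ha0, r, hr, φ0, ρ, h, hφ0, hρ, hk⟩
  rw [hk, add_zero] at hperp
  obtain ⟨u, hu, hφu⟩ := exists_apply_ne hc hφ0 hΦ
  obtain ⟨w, hw, hw'⟩ := exists_ne_pair hdim a0 u
  obtain ⟨η, hη, hηS, hηR⟩ := exists_fun_U hc (S := Submodule.span (ZMod p) {a0, u})
    (Submodule.span_le.mpr (by simp [Set.insert_subset_iff, ha0, hu])) hw hw'
  have hη0 : η ≠ 0 := fun e => by simp [e] at hη
  have hηa : η a0 = 0 := hηS a0 (Submodule.subset_span (by simp))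
  have hηu : η u = 0 := hηS u (Submodule.subset_span (by simp))
  have h1 : Tv H (a0 + r) η := h.move_fix_left (hP.tv u hu η hηu hηR)
    (by rw [map_add, hηa, hηR r hr, add_zero]) (by rwa [LinearMap.add_apply, hρ u hu, add_zero])
  have h2 := h1.sub_left (hP.tv a0 ha0 η hηa hηR)
  rw [add_sub_cancel_left] at h2
  have hr0 : r = 0 := by
    by_contra hr0
    exact hgrow (hP.exists_pairing_of_right hPt h2 hr hr0 hη0 hηR)
  rw [hr0, add_zero] at h ⊢
  have hρ0 : ρ = 0 := by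
    by_contra hρ0
    have h3 := h.sub_right (hP.tv a0 ha0 φ0 hperp hφ0)
    rw [add_sub_cancel_left] at h3
    exact hgrow (hP.exists_pairing_of_left hPt h3 ha0 hA hρ0 hρ)
  exact Or.inl ⟨ha0, fun x hx => by rw [hρ0, add_zero]; exact hφ0 x hx⟩

end SL

end CfsgLib.TvGenerated
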