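import Cfsg.Agent.TvGenerated.Pieces

/-!
Symplectic pieces: they become special linear, grow by a hyperbolic plane, or split every transvection.
-/

set_option autoImplicit false
set_option linter.style.haveILetI false
set_option linter.unusedSectionVars false

namespace CfsgLib.TvGenerated

variable {p : ℕ} [Fact p.Prime] {V : Type*} [AddCommGroup V] [Module (ZMod p) V] [Finite V]

local notation "D" => Module.Dual (ZMod p) V

/-- A special linear piece of dimension at least three around `U`. -/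
def Big (H : Subgroup (V ≃ₗ[ZMod p] V)) (U R : Submodule (ZMod p) V) : Prop :=
  ∃ U' R', SLP H U' R' ∧ 3 ≤ Module.finrank (ZMod p) U' ∧ U ≤ U' ∧ R' ≤ R

variable {H : Subgroup (V ≃ₗ[ZMod p] V)} {U R : Submodule (ZMod p) V} {B : V →ₗ[ZMod p] Module.Dual (ZMod p) V} (hP : SpP H U R B)

include hP

theorem SpP.skew (x y : V) : B y x = -B x y := by
  have h := hP.alt (x + y)
  simp only [map_add, LinearMap.add_apply, hP.alt] at h
  linear_combination h

theorem SpP.apply_R (x : V) {r : V} (hr : r ∈ R) : B x r = 0 := by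
  rw [hP.skew r x, hP.rad r hr]; simp

theorem SpP.two_le {a : V} (ha : a ∈ U) (ha0 : a ≠ 0) : 2 ≤ Module.finrank (ZMod p) U := by
  obtain ⟨w, hw, haw⟩ := hP.nd a ha ha0
  have hli : LinearIndependent (ZMod p) ![(⟨a, ha⟩ : U), ⟨w, hw⟩] := by
    rw [LinearIndependent.pair_iff' (fun h => ha0 (congrArg Subtype.val h))]
    intro l hl
    have := congrArg Subtype.val hl
    simp only [SetLike.val_smul] at this
    exact haw (by rw [← this, map_smul, hP.alt, smul_zero])
  simpa using hli.fintype_card_le_finrank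

theorem SpP.eq_of_forall {u v : V} (hu : u ∈ U) (hv : v ∈ U) (h : ∀ w ∈ U, B u w = B v w) : u = v := by
  by_contra hne
  obtain ⟨w, hw, hne'⟩ := hP.nd (u - v) (sub_mem hu hv) (sub_ne_zero.mpr hne)
  exact hne' (by rw [map_sub, LinearMap.sub_apply, h w hw, sub_self])

theorem SpP.exists_rep {φ : D} (hφ : ∀ r ∈ R, φ r = 0) : ∃ z ∈ U, φ = B z := by
  let Φ : U →ₗ[ZMod p] Module.Dual (ZMod p) U :=
    (LinearMap.lcomp (ZMod p) (ZMod p) U.subtype).comp (B.comp U.subtype)
  have hinj : Function.Injective Φ := fun u v h =>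
    Subtype.ext (hP.eq_of_forall u.2 v.2 fun w hw => LinearMap.congr_fun h ⟨w, hw⟩)
  obtain ⟨z, hz⟩ := (LinearMap.injective_iff_surjective_of_finrank_eq_finrank
    Subspace.dual_finrank_eq.symm).mp hinj (φ.comp U.subtype)
  exact ⟨z, z.2, fun_ext hP.compl (fun u hu => (LinearMap.congr_fun hz ⟨u, hu⟩).symm)
    fun r hr => by rw [hφ r hr, hP.apply_R _ hr]⟩

theorem SpP.exists_common {u v : V} (hu : u ∈ U) (hu0 : u ≠ 0) (hv : v ∈ U) (hv0 : v ≠ 0) :
    ∃ w ∈ U, B u w ≠ 0 ∧ B v w ≠ 0 := by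
  obtain ⟨a, ha, ha'⟩ := hP.nd u hu hu0
  obtain ⟨b, hb, hb'⟩ := hP.nd v hv hv0
  by_cases h1 : B v a = 0
  · by_cases h2 : B u b = 0
    · exact ⟨a + b, add_mem ha hb, by rwa [map_add, h2, add_zero], by rwa [map_add, h1, zero_add]⟩
    · exact ⟨b, hb, h2, hb'⟩
  · exact ⟨a, ha, ha', h1⟩

theorem SpP.toSLP {a0 r w : V} {ρ : D} (h : Tv H (a0 + r) (B w + ρ)) (ha0 : a0 ∈ U) (hr : r ∈ R)
    (hw : w ∈ U) (hρ : ∀ u ∈ U, ρ u = 0) (ha : a0 ≠ 0) (hwa : w ∉ Submodule.span (ZMod p) {a0}) :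
    SLP H U R := by
  obtain ⟨e, he, hae⟩ := hP.nd a0 ha0 ha
  obtain ⟨z1, hz1, haz1, hwz1⟩ : ∃ z ∈ U, B a0 z = 0 ∧ B w z ≠ 0 := by
    by_contra hn
    push Not at hn
    refine hwa (Submodule.mem_span_singleton.mpr ⟨B w e / B a0 e, hP.eq_of_forall (U.smul_mem _ ha0) hw fun z hz => ?_⟩)
    have h0 := hn (z - (B a0 z / B a0 e) • e) (sub_mem hz (U.smul_mem _ he))
      (by rw [map_sub, map_smul, smul_eq_mul, div_mul_cancel₀ _ hae, sub_self])
    rw [map_sub, map_smul, smul_eq_mul, sub_eq_zero] at h0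
    rw [map_smul, LinearMap.smul_apply, smul_eq_mul, h0]
    ring
  have hmain : ∀ z ∈ U, B a0 z = 0 → Tv H (a0 + r) (B z) := by
    have direct : ∀ z ∈ U, B a0 z = 0 → B w z ≠ 0 → Tv H (a0 + r) (B z) := fun z hz haz hwz =>
      h.move_fix_left (hP.tv z hz)
        (by rw [map_add, hP.skew a0 z, haz, hP.apply_R z hr, neg_zero, add_zero])
        (by rwa [LinearMap.add_apply, hρ z hz, add_zero])
    intro z hz haz
    by_cases hwz : B w z = 0
    · have h1 := (direct (z + z1) (add_mem hz hz1) (by rw [map_add, haz, haz1, add_zero])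
        (by rwa [map_add, hwz, zero_add])).sub_right (direct z1 hz1 haz1 hwz1)
      rwa [map_add, add_sub_cancel_right] at h1
    · exact direct z hz haz hwz
  have hr1 : Tv H r (B a0) := by
    simpa using (hmain a0 ha0 (hP.alt a0)).sub_left (hP.tv a0 ha0)
  have hrall : ∀ z ∈ U, Tv H r (B z) := by
    have direct : ∀ z ∈ U, B a0 z ≠ 0 → Tv H r (B z) := fun z hz hne =>
      hr1.move_fix_left (hP.tv z hz) (hP.apply_R z hr) hne
    intro z hz
    by_cases hne : B a0 z = 0
    · have h1 := (direct (z + e) (add_mem hz he) (by rwa [map_add, hne, zero_add])).sub_right (direct e he hae)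
      rwa [map_add, add_sub_cancel_right] at h1
    · exact direct z hz hne
  let P : V → Prop := fun u => ∀ z ∈ U, B u z = 0 → Tv H u (B z)
  have hP0 : P a0 := fun z hz haz => by simpa using (hmain z hz haz).sub_left (hrall z hz)
  have hprop : ∀ u u', u ∈ U → u' ∈ U → B u u' ≠ 0 → P u → P u' := by
    intro u u' hu hu' hne hPu z' hz' hu'z'
    set d := u' - u with hd
    have hdU : d ∈ U := sub_mem hu' hu
    have hdu : B d u = -B u u' := by rw [hd, map_sub, LinearMap.sub_apply, hP.alt, sub_zero, hP.skew u u']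
    set c := (B d u)⁻¹ with hc
    have hne' : B d u ≠ 0 := by rw [hdu]; exact neg_ne_zero.mpr hne
    set z := z' + (c * B z' d) • d with hz
    have hBuz : B u z = 0 := by
      rw [hz, map_add, map_smul, smul_eq_mul, hP.skew d u, hc,
        show (B d u)⁻¹ * B z' d * -B d u = -B z' d by field_simp, hd, map_sub, hP.skew u' z', hu'z',
        hP.skew u z']
      ring
    have h1 := (hPu z (add_mem hz' (U.smul_mem _ hdU)) hBuz).move' (hP.tv d hdU) c
    rw [hc, inv_mul_cancel₀ hne', one_smul, hd, add_sub_cancel] at h1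
    convert h1 using 1
    rw [← hd, ← hc, hz, map_add B, LinearMap.add_apply, map_smul B, LinearMap.smul_apply, hP.alt, smul_zero,
      add_zero]
    module
  have hPall : ∀ u ∈ U, u ≠ 0 → P u := by
    intro u hu hu0
    obtain ⟨v, hv, h1, h2⟩ := hP.exists_common ha0 ha hu hu0
    exact hprop v u hv hu (by rw [hP.skew u v]; exact neg_ne_zero.mpr h2) (hprop a0 v ha0 hv h1 hP0)
  refine ⟨hP.compl, fun u hu φ hφu hφR => ?_⟩
  by_cases hu0 : u = 0
  · rw [hu0]; exact tv_zero_left φ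
  obtain ⟨z, hz, rfl⟩ := hP.exists_rep hφR
  exact hPall u hu hu0 z hz (by rw [hP.skew z u, hφu, neg_zero])

theorem SpP.big_of_nonparallel {a0 r w : V} {ρ : D} (h : Tv H (a0 + r) (B w + ρ)) (ha0 : a0 ∈ U) (hr : r ∈ R)
    (hw : w ∈ U) (hρ : ∀ u ∈ U, ρ u = 0) (ha : a0 ≠ 0) (hwa : w ∉ Submodule.span (ZMod p) {a0}) :
    Big H U R := by
  have hS := hP.toSLP h ha0 hr hw hρ ha hwa
  have h2 := hP.two_le ha0 ha
  by_cases h3 : 3 ≤ Module.finrank (ZMod p) U
  · exact ⟨U, R, hS, h3, le_rfl, le_rfl⟩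
  have hli : LinearIndependent (ZMod p) ![a0, w] := by
    rw [LinearIndependent.pair_iff' ha]
    exact fun l hl => hwa (Submodule.mem_span_singleton.mpr ⟨l, hl⟩)
  have hspan : Submodule.span (ZMod p) {a0, w} = U := by
    refine Submodule.eq_of_le_of_finrank_le (Submodule.span_le.mpr (by simp [Set.insert_subset_iff, ha0, hw])) ?_
    rw [← Matrix.range_cons_cons_empty, finrank_span_eq_card hli, Fintype.card_fin]
    omega
  have hne : B w a0 ≠ 0 := fun e => by
    have hw0 : w = 0 := hP.eq_of_forall hw (zero_mem U) fun z hz => by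
      rw [← hspan] at hz
      obtain ⟨s, t, rfl⟩ := Submodule.mem_span_pair.mp hz
      simp [e, hP.alt]
    exact hwa (hw0 ▸ zero_mem _)
  have hk : ρ r ≠ 0 := fun e => hne (by
    have := h.perp
    rwa [LinearMap.add_apply, map_add, map_add, hρ a0 ha0, e, hP.apply_R w hr, add_zero, add_zero, add_zero] at this)
  refine ⟨_, _, hS.grow h2 h ha0 hr (fun x hx => hP.apply_R w hx) hρ hk, ?_, le_sup_left, inf_le_left⟩
  have hr0 : r ≠ 0 := fun e => hk (by rw [e, map_zero])
  have hlt : U < U ⊔ Submodule.span (ZMod p) {r} := lt_of_le_of_ne le_sup_left fun e => hr0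
    (eq_zero_of_mem_both hP.compl (e ▸ Submodule.mem_sup_right (Submodule.mem_span_singleton_self r)) hr)
  have := Submodule.finrank_lt_finrank_of_lt hlt
  omega

/-- Without a special linear piece around, every transvection is parallel on `U`. -/
theorem SpP.parallel (hPt : Partner H) (hB : ¬ Big H U R) {a0 r w : V} {ρ : D}
    (h : Tv H (a0 + r) (B w + ρ)) (ha0 : a0 ∈ U) (hr : r ∈ R) (hw : w ∈ U) (hρ : ∀ u ∈ U, ρ u = 0)
    (hne : a0 + r ≠ 0) (hne' : B w + ρ ≠ 0) : ∃ c : ZMod p, c ≠ 0 ∧ w = c • a0 := by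
  by_cases ha : a0 = 0
  · refine ⟨1, one_ne_zero, by_contra fun hw0 => hB ?_⟩
    rw [ha, smul_zero] at hw0
    rw [ha, zero_add] at h hne
    obtain ⟨e, he, hwe⟩ := hP.nd w hw hw0
    have hall : ∀ z ∈ U, Tv H r (B z) := by
      have direct : ∀ z ∈ U, B w z ≠ 0 → Tv H r (B z) := fun z hz hne =>
        h.move_fix_left (hP.tv z hz) (hP.apply_R z hr) (by rwa [LinearMap.add_apply, hρ z hz, add_zero])
      intro z hz
      by_cases hne : B w z = 0
      · have h1 := (direct (z + e) (add_mem hz he) (by rwa [map_add, hne, zero_add])).sub_right (direct e he hwe)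
        rwa [map_add, add_sub_cancel_right] at h1
      · exact direct z hz hne
    have hBw : B w ≠ 0 := fun e0 => hwe (by rw [e0]; rfl)
    obtain ⟨c, χ, hc, hδc, hχr⟩ := hPt r (B w) (hall w hw) hne hBw
    obtain ⟨c0, hc0, rc, hrc, rfl⟩ := exists_parts hP.compl c
    obtain ⟨χ0, σ, rfl, hχ0, hσ⟩ := exists_fun_parts hP.compl χ
    obtain ⟨wc, hwc, rfl⟩ := hP.exists_rep hχ0
    rw [map_add, hP.apply_R w hrc, add_zero] at hδc
    rw [LinearMap.add_apply, hP.apply_R wc hr, zero_add] at hχr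
    have hc00 : c0 ≠ 0 := fun e0 => hδc (by rw [e0, map_zero])
    obtain ⟨e', he', he''⟩ := exists_ne_span (hP.two_le hc0 hc00) c0
    set z := (σ r)⁻¹ • (wc - e') with hz
    have hzU : z ∈ U := U.smul_mem _ (sub_mem hwc he')
    have h1 := hc.move (hall z hzU)
    rw [LinearMap.add_apply, hP.apply_R wc hr, zero_add, map_add (B z), hP.apply_R z hrc, add_zero, add_assoc,
      add_sub_right_comm, ← map_smul B, hz, smul_inv_smul₀ hχr, ← map_sub, sub_sub_cancel] at h1
    exact hP.big_of_nonparallel h1 hc0 (add_mem hrc (R.smul_mem _ hr)) he' hσ hc00 he''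
  by_cases hpar : w ∈ Submodule.span (ZMod p) {a0}
  swap
  · exact absurd (hP.big_of_nonparallel h ha0 hr hw hρ ha hpar) hB
  obtain ⟨c, rfl⟩ := Submodule.mem_span_singleton.mp hpar
  refine ⟨c, fun e0 => hB ?_, rfl⟩
  rw [e0, zero_smul, map_zero, zero_add] at h hne'
  obtain ⟨e, he, hae⟩ := hP.nd a0 ha0 ha
  have hall : ∀ z ∈ U, Tv H z ρ := by
    have direct : ∀ z ∈ U, B a0 z ≠ 0 → Tv H z ρ := fun z hz hne =>
      h.move_fix_right (hP.tv z hz) (hρ z hz)
        (by rw [map_add, hP.apply_R z hr, add_zero, hP.skew a0 z]; exact neg_ne_zero.mpr hne)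
    intro z hz
    by_cases hne : B a0 z = 0
    · have h1 := (direct (z + e) (add_mem hz he) (by rwa [map_add, hne, zero_add])).sub_left (direct e he hae)
      rwa [add_sub_cancel_right] at h1
    · exact direct z hz hne
  obtain ⟨c', χ, hc, hρc, hχa⟩ := hPt a0 ρ (hall a0 ha0) ha hne'
  obtain ⟨c0, hc0, rc, hrc, rfl⟩ := exists_parts hP.compl c'
  obtain ⟨χ0, σ, rfl, hχ0, hσ⟩ := exists_fun_parts hP.compl χ
  obtain ⟨wc, hwc, rfl⟩ := hP.exists_rep hχ0
  rw [map_add, hρ c0 hc0, zero_add] at hρc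
  rw [LinearMap.add_apply, hσ a0 ha0, add_zero] at hχa
  have hwc0 : wc ≠ 0 := fun e1 => hχa (by rw [e1, map_zero]; rfl)
  obtain ⟨e', he', he''⟩ := exists_ne_span (hP.two_le ha0 ha) wc
  set z := (ρ rc)⁻¹ • (e' - c0) with hz
  have hzU : z ∈ U := U.smul_mem _ (sub_mem he' hc0)
  have h1 := hc.move (hall z hzU)
  rw [map_add ρ, hρ c0 hc0, zero_add, hz, smul_inv_smul₀ hρc, add_right_comm, add_sub_cancel,
    add_sub_assoc] at h1
  refine hP.big_of_nonparallel h1 he' hrc hwc (fun x hx => by simp [hσ x hx, hρ x hx])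
    (fun e1 => he'' (e1 ▸ zero_mem _)) fun hm => ?_
  obtain ⟨l, hl⟩ := Submodule.mem_span_singleton.mp hm
  have hl0 : l ≠ 0 := fun e1 => hwc0 (by rw [← hl, e1, zero_smul])
  exact he'' (Submodule.mem_span_singleton.mpr ⟨l⁻¹, by rw [← hl, inv_smul_smul₀ hl0]⟩)

/-- Adding a hyperbolic plane to a symplectic piece. -/
theorem SpP.extend {r s : V} {ρ σ : D} {a0 : V} {c : ZMod p} (hc : c ≠ 0) (hr : r ∈ R) (hs : s ∈ R)
    (hρ : ∀ u ∈ U, ρ u = 0) (hσ : ∀ u ∈ U, σ u = 0) (htr : Tv H r ρ) (hts : Tv H s σ) (hρs : ρ s ≠ 0)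
    (hσr : σ r ≠ 0) (hlink : U = ⊥ ∨ (a0 ∈ U ∧ a0 ≠ 0 ∧ Tv H (a0 + r) (c • B a0 + ρ))) :
    ∃ B', SpP H (U ⊔ Submodule.span (ZMod p) {r, s}) (R ⊓ LinearMap.ker ρ ⊓ LinearMap.ker σ) B' ∧
      ∃ l : ZMod p, l ≠ 0 ∧ B' r = l • ρ := by
  set B' : V →ₗ[ZMod p] D := B + (c * σ r)⁻¹ • (σ.smulRight ρ - ρ.smulRight σ) with hB'
  set m := (c * σ r)⁻¹ with hm
  have hm0 : m ≠ 0 := inv_ne_zero (mul_ne_zero hc hσr)
  have happ : ∀ x y, B' x y = B x y + m * (σ x * ρ y - ρ x * σ y) := fun x y => by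
    simp [hB', LinearMap.smulRight_apply]
  have hρr := htr.perp
  have hσs := hts.perp
  have hB'r : B' r = c⁻¹ • ρ := LinearMap.ext fun y => by
    rw [happ, hP.rad r hr, hρr, LinearMap.smul_apply, smul_eq_mul, hm]
    simp; field_simp
  have hB's : B' s = -(m * ρ s) • σ := LinearMap.ext fun y => by
    rw [happ, hP.rad s hs, hσs, LinearMap.smul_apply, smul_eq_mul]
    simp; ring
  have hB'u : ∀ u ∈ U, B' u = B u := fun u hu => LinearMap.ext fun y => by
    rw [happ, hρ u hu, hσ u hu]; ring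
  have halt : ∀ x, B' x x = 0 := fun x => by rw [happ, hP.alt]; ring
  have hskew : ∀ x y, B' y x = -B' x y := fun x y => by rw [happ, happ, hP.skew x y]; ring
  -- the points whose transvection is present
  let S : V → Prop := fun x => Tv H x (B' x)
  have hsm : ∀ x, S x → ∀ l : ZMod p, S (l • x) := fun x hx l => by
    show Tv H _ _
    rw [map_smul B']; exact (hx.smul_left l).smul_right l
  have hmv : ∀ x y, S x → S y → B' x y ≠ 0 → ∀ l : ZMod p, S (x + l • y) := by
    intro x y hx hy hne l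
    have h1 := Tv.move' hx hy (l / B' y x)
    have hne' : B' y x ≠ 0 := by rw [hskew x y]; exact neg_ne_zero.mpr hne
    rw [div_mul_cancel₀ _ hne'] at h1
    show Tv H _ _
    convert h1 using 1
    have e : l / B' y x * B' x y = -l := by rw [hskew y x]; field_simp
    rw [map_add B', map_smul B', e]
    module
  have hSr : S r := by show Tv H r (B' r); rw [hB'r]; exact htr.smul_right _
  have hSs : S s := by show Tv H s (B' s); rw [hB's]; exact hts.smul_right _
  have hrs : B' r s ≠ 0 := by rw [hB'r]; exact mul_ne_zero (inv_ne_zero hc) hρs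
  have hW : ∀ α β : ZMod p, S (α • r + β • s) := by
    intro α β
    by_cases hα : α = 0
    · rw [hα, zero_smul, zero_add]; exact hsm s hSs β
    · have h1 := hsm _ (hmv r s hSr hSs hrs (β / α)) α
      rwa [smul_add, smul_smul, mul_div_cancel₀ _ hα] at h1
  have hU : ∀ u ∈ U, S u := fun u hu => by show Tv H u (B' u); rw [hB'u u hu]; exact hP.tv u hu
  have hall : ∀ x ∈ U ⊔ Submodule.span (ZMod p) {r, s}, S x := by
    intro x hx
    obtain ⟨u, hu, z, hz, rfl⟩ := Submodule.mem_sup.mp hx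
    obtain ⟨α, β, rfl⟩ := Submodule.mem_span_pair.mp hz
    by_cases hu0 : u = 0
    · rw [hu0, zero_add]; exact hW α β
    obtain ⟨ha0U, ha00, hlink⟩ : a0 ∈ U ∧ a0 ≠ 0 ∧ Tv H (a0 + r) (c • B a0 + ρ) := by
      refine hlink.resolve_left fun hbot => hu0 ?_
      rwa [hbot, Submodule.mem_bot] at hu
    have hpair : ∀ (v : V) (α β γ δ : ZMod p), v ∈ U →
        B' (v + (α • r + β • s)) (γ • r + δ • s) = B' r s * (α * δ - β * γ) := by
      intro v α β γ δ hv
      have hv1 : B' v r = 0 := by rw [hB'u v hv]; exact hP.apply_R v hr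
      have hv2 : B' v s = 0 := by rw [hB'u v hv]; exact hP.apply_R v hs
      simp only [map_add, map_smul, LinearMap.add_apply, LinearMap.smul_apply, smul_eq_mul, hv1, hv2, halt,
        hskew r s]
      ring
    have hbase : S (a0 + ((1 : ZMod p) • r + (0 : ZMod p) • s)) := by
      show Tv H _ _
      rw [one_smul, zero_smul, add_zero]
      convert hlink.smul_right c⁻¹ using 1
      rw [map_add B', hB'u a0 ha0U, hB'r, smul_add, inv_smul_smul₀ hc]
    have hstep : ∀ γ δ : ZMod p, δ ≠ 0 → S (a0 + (γ • r + δ • s)) := by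
      intro γ δ hδ
      have h1 := hmv _ ((γ - 1) • r + δ • s) hbase (hW _ _)
        (by rw [hpair a0 1 0 (γ - 1) δ ha0U]; simpa using ⟨hrs, hδ⟩) 1
      rw [one_smul] at h1
      convert h1 using 1
      module
    have ha0all : ∀ γ δ : ZMod p, S (a0 + (γ • r + δ • s)) := by
      intro γ δ
      by_cases hδ : δ = 0
      · subst hδ
        by_cases hγ : γ = 0
        · rw [hγ, zero_smul, zero_smul, add_zero, add_zero]; exact hU a0 ha0U
        have h1 := hmv _ ((γ - 1) • r + (-1 : ZMod p) • s) (hstep 1 1 one_ne_zero) (hW _ _)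
          (by
            rw [hpair a0 1 1 (γ - 1) (-1) ha0U]
            refine mul_ne_zero hrs fun e => ?_
            rw [show (1 : ZMod p) * -1 - 1 * (γ - 1) = -γ by ring, neg_eq_zero] at e
            exact hγ e) 1
        rw [one_smul] at h1
        convert h1 using 1
        module
      · exact hstep γ δ hδ
    have hBv : ∀ (v w : V) (α β : ZMod p), v ∈ U → w ∈ U → B' (v + (α • r + β • s)) w = B v w := by
      intro v w α β hv hw
      rw [map_add B', map_add B', map_smul B', map_smul B', hB'u v hv, hB'r, hB's]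
      simp [hρ w hw, hσ w hw]
    have hgo : ∀ v v', v ∈ U → v' ∈ U → B v v' ≠ 0 → (∀ α β : ZMod p, S (v + (α • r + β • s))) →
        ∀ α β : ZMod p, S (v' + (α • r + β • s)) := by
      intro v v' hv hv' hne h α β
      have h1 := hmv _ (v' - v) (h α β) (hU _ (sub_mem hv' hv))
        (by rwa [hBv v (v' - v) α β hv (sub_mem hv' hv), map_sub, hP.alt, sub_zero]) 1
      rw [one_smul] at h1
      convert h1 using 1
      abel
    obtain ⟨v, hv, h1, h2⟩ := hP.exists_common ha0U ha00 hu hu0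
    exact hgo v u hv hu (by rw [hP.skew u v]; exact neg_ne_zero.mpr h2) (hgo a0 v ha0U hv h1 ha0all) α β
  refine ⟨B', ⟨?_, halt, fun x hx => ?_, fun x hx hx0 => ?_, hall⟩, c⁻¹, inv_ne_zero hc, hB'r⟩
  · refine ⟨disjoint_iff.mpr ((Submodule.eq_bot_iff _).mpr fun x hx => ?_),
      codisjoint_iff.mpr (eq_top_iff.mpr fun x _ => ?_)⟩
    · obtain ⟨u, hu, z, hz, rfl⟩ := Submodule.mem_sup.mp (Submodule.mem_inf.mp hx).1
      obtain ⟨α, β, rfl⟩ := Submodule.mem_span_pair.mp hz
      obtain ⟨h1, hσx⟩ := Submodule.mem_inf.mp (Submodule.mem_inf.mp hx).2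
      obtain ⟨hxR, hρx⟩ := Submodule.mem_inf.mp h1
      simp only [LinearMap.mem_ker, map_add, map_smul, hρ u hu, hσ u hu, hρr, hσs, smul_zero, add_zero,
        zero_add, smul_eq_mul, mul_zero, mul_eq_zero, hρs, hσr, or_false] at hρx hσx
      rw [hρx, hσx, zero_smul, zero_smul, add_zero, add_zero] at hxR ⊢
      exact eq_zero_of_mem_both hP.compl hu hxR
    · obtain ⟨u, hu, y, hy, rfl⟩ := exists_parts hP.compl x
      refine Submodule.mem_sup.mpr ⟨u + ((σ y / σ r) • r + (ρ y / ρ s) • s),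
        add_mem (Submodule.mem_sup_left hu) (Submodule.mem_sup_right (add_mem
          (Submodule.smul_mem _ _ (Submodule.subset_span (by simp)))
          (Submodule.smul_mem _ _ (Submodule.subset_span (by simp))))),
        y - ((σ y / σ r) • r + (ρ y / ρ s) • s), Submodule.mem_inf.mpr ⟨Submodule.mem_inf.mpr
          ⟨sub_mem hy (add_mem (R.smul_mem _ hr) (R.smul_mem _ hs)), ?_⟩, ?_⟩, by abel⟩
      · rw [LinearMap.mem_ker, map_sub, map_add, map_smul, map_smul, hρr, smul_zero, zero_add, smul_eq_mul,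
          div_mul_cancel₀ _ hρs, sub_self]
      · rw [LinearMap.mem_ker, map_sub, map_add, map_smul, map_smul, hσs, smul_zero, add_zero, smul_eq_mul,
          div_mul_cancel₀ _ hσr, sub_self]
  · obtain ⟨h1, hσx⟩ := Submodule.mem_inf.mp hx
    obtain ⟨hxR, hρx⟩ := Submodule.mem_inf.mp h1
    refine LinearMap.ext fun y => ?_
    rw [happ, hP.rad x hxR, LinearMap.mem_ker.mp hρx, LinearMap.mem_ker.mp hσx]
    simp
  · obtain ⟨u, hu, z, hz, rfl⟩ := Submodule.mem_sup.mp hx
    obtain ⟨α, β, rfl⟩ := Submodule.mem_span_pair.mp hz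
    by_cases hu0 : u = 0
    · subst hu0
      rw [zero_add] at hx0 ⊢
      by_cases hα : α = 0
      · subst hα
        rw [zero_smul, zero_add] at hx0 ⊢
        have hβ : β ≠ 0 := fun e => hx0 (by rw [e, zero_smul])
        refine ⟨r, Submodule.mem_sup_right (Submodule.subset_span (by simp)), ?_⟩
        rw [map_smul B', LinearMap.smul_apply, hskew r s]
        exact smul_ne_zero hβ (neg_ne_zero.mpr hrs)
      · refine ⟨s, Submodule.mem_sup_right (Submodule.subset_span (by simp)), ?_⟩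
        rw [map_add B', map_smul B', map_smul B', LinearMap.add_apply, LinearMap.smul_apply,
          LinearMap.smul_apply, halt, smul_zero, add_zero]
        exact smul_ne_zero hα hrs
    · obtain ⟨w, hw, hne⟩ := hP.nd u hu hu0
      refine ⟨w, Submodule.mem_sup_left hw, ?_⟩
      rw [map_add B', map_add B', map_smul B', map_smul B', hB'u u hu, hB'r, hB's]
      simpa [hρ w hw, hσ w hw] using hne

/-- A symplectic piece without a special linear one around grows or splits every transvection. -/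
theorem SpP.split_or_grow (hp : p ≠ 2) (hPt : Partner H) (hB : ¬ Big H U R) (hU : U ≠ ⊥) :
    (∀ a φ, Tv H a φ → a ≠ 0 → φ ≠ 0 → (a ∈ U ∧ ∃ c : ZMod p, φ = c • B a) ∨ Outside U R a φ) ∨
      ∃ U' R' B', SpP H U' R' B' ∧ U < U' ∧ R' ≤ R := by
  rw [or_iff_not_imp_right]
  intro hno a φ h ha hφ
  obtain ⟨a0, ha0, r, hr, rfl⟩ := exists_parts hP.compl a
  obtain ⟨φ0, ρ, rfl, hφ0, hρ⟩ := exists_fun_parts hP.compl φ
  obtain ⟨w, hw, rfl⟩ := hP.exists_rep hφ0
  obtain ⟨c, hc, rfl⟩ := hP.parallel hPt hB h ha0 hr hw hρ ha hφ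
  by_cases hA : a0 = 0
  · right
    exact ⟨by rwa [hA, zero_add], fun u hu => by rw [hA, smul_zero, map_zero, zero_add]; exact hρ u hu⟩
  left
  rw [map_smul] at h hφ ⊢
  have hBa : B a0 ≠ 0 := fun e => by
    obtain ⟨x, -, hx⟩ := hP.nd a0 ha0 hA
    exact hx (by rw [e]; rfl)
  have hρr : ρ r = 0 := by
    have := h.perp
    rwa [LinearMap.add_apply, LinearMap.smul_apply, map_add, map_add, hP.alt, hP.apply_R a0 hr, hρ a0 ha0,
      add_zero, smul_zero, zero_add, zero_add] at this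
  suffices hr0 : r = 0 by
    have hρ0 : ρ = 0 := by
      by_contra hρ0
      rw [hr0, add_zero] at h
      have h1 := h.sub_right ((hP.tv a0 ha0).smul_right c)
      rw [add_sub_cancel_left, ← zero_add ρ, ← map_zero B, ← add_zero a0] at h1
      obtain ⟨c', hc', e⟩ := hP.parallel hPt hB h1 ha0 (zero_mem R) (zero_mem U) hρ
        (by rwa [add_zero]) (by rwa [map_zero, zero_add])
      exact hA ((smul_eq_zero.mp e.symm).resolve_left hc')
    rw [hr0, add_zero, hρ0, add_zero]
    exact ⟨ha0, c, rfl⟩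
  by_contra hr0
  have hρ0 : ρ ≠ 0 := by
    intro hρ0
    rw [hρ0, add_zero] at h
    have h1 := h.sub_left ((hP.tv a0 ha0).smul_right c)
    rw [add_sub_cancel_left, ← add_zero (c • B a0), ← map_smul, ← zero_add r] at h1
    obtain ⟨c', hc', e⟩ := hP.parallel hPt hB h1 (zero_mem U) hr hw (fun u _ => rfl)
      (by rwa [zero_add]) (by rw [map_smul, add_zero]; exact smul_ne_zero hc hBa)
    rw [smul_zero] at e
    exact hA ((smul_eq_zero.mp e).resolve_left hc)
  -- the orbit of the transvection under the piece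
  let P : V → Prop := fun u => Tv H (u + r) (c • B u + ρ)
  have hprop : ∀ u u', u ∈ U → u' ∈ U → B u u' ≠ 0 → P u → P u' := by
    intro u u' hu hu' hne hPu
    set d := u' - u with hd
    have hdU : d ∈ U := sub_mem hu' hu
    have hdu : B d u = -B u u' := by rw [hd, map_sub, LinearMap.sub_apply, hP.alt, sub_zero, hP.skew u u']
    have hne' : B d u ≠ 0 := by rw [hdu]; exact neg_ne_zero.mpr hne
    have h1 := hPu.move' (hP.tv d hdU) (B d u)⁻¹
    show Tv H _ _
    convert h1 using 1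
    · rw [map_add, hP.apply_R d hr, add_zero, inv_mul_cancel₀ hne', one_smul, hd]; abel
    · rw [LinearMap.add_apply, LinearMap.smul_apply, hρ d hdU, add_zero, hP.skew d u, smul_eq_mul,
        show (B d u)⁻¹ * (c * -B d u) = -c by field_simp, hd, map_sub]
      module
  have hPall : ∀ u ∈ U, u ≠ 0 → P u := by
    intro u hu hu0
    obtain ⟨v, hv, h1, h2⟩ := hP.exists_common ha0 hA hu hu0
    exact hprop v u hv hu (by rw [hP.skew u v]; exact neg_ne_zero.mpr h2) (hprop a0 v ha0 hv h1 h)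
  have hrρ : Tv H r ρ := by
    obtain ⟨-, g1, hg1, e1⟩ := h
    obtain ⟨-, g2, hg2, e2⟩ := hPall (-a0) (neg_mem ha0) (neg_ne_zero.mpr hA)
    obtain ⟨-, g3, hg3, e3⟩ := (hP.tv a0 ha0).smul_right (-(2 * c))
    have h2ρ : Tv H r ((2 : ZMod p) • ρ) := by
      refine ⟨by rw [LinearMap.smul_apply, hρr, smul_zero], g1 * g2 * g3, mul_mem (mul_mem hg1 hg2) hg3,
        fun x => ?_⟩
      show g1 (g2 (g3 x)) = _
      rw [e3, e2, e1]
      simp only [map_neg, LinearMap.add_apply, LinearMap.smul_apply, LinearMap.neg_apply, map_add, map_smul,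
        smul_eq_mul, hP.alt, hP.apply_R a0 hr, hρ a0 ha0, hρr, neg_zero]
      module
    have h2 : (2 : ZMod p) ≠ 0 := by
      intro e
      have : p ∣ 2 := (ZMod.natCast_eq_zero_iff 2 p).mp (by exact_mod_cast e)
      exact hp ((Nat.prime_dvd_prime_iff_eq Fact.out Nat.prime_two).mp this)
    have := h2ρ.smul_right (2 : ZMod p)⁻¹
    rwa [inv_smul_smul₀ h2] at this
  obtain ⟨c', χ, hc'χ, hρc', hχr⟩ := hPt r ρ hrρ hr0 hρ0
  obtain ⟨c0, hc0, rc, hrc, rfl⟩ := exists_parts hP.compl c'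
  rw [map_add, hρ c0 hc0, zero_add] at hρc'
  obtain ⟨s, σ, hts, hσr, hρs, hsR⟩ : ∃ s σ, Tv H s σ ∧ σ r ≠ 0 ∧ ρ s ≠ 0 ∧ s ∈ R := by
    by_cases hc00 : c0 = 0
    · exact ⟨_, χ, hc'χ, hχr, by rwa [hc00, zero_add], by rwa [hc00, zero_add]⟩
    set u := (-(ρ rc)⁻¹) • c0 with hu
    have huU : u ∈ U := U.smul_mem _ hc0
    have hu0 : u ≠ 0 := smul_ne_zero (neg_ne_zero.mpr (inv_ne_zero hρc')) hc00
    have h1 := hc'χ.move (hPall u huU hu0)
    have eφ : (c • B u + ρ) (c0 + rc) = ρ rc := by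
      rw [hu]
      simp [hP.alt, hP.apply_R c0 hrc, hρ c0 hc0]
    have eφr : (c • B u + ρ) r = 0 := by simp [hP.apply_R u hr, hρr]
    rw [eφ] at h1
    have es : c0 + rc + ρ rc • (u + r) = rc + ρ rc • r := by
      rw [smul_add, hu, smul_smul, mul_neg, mul_inv_cancel₀ hρc']
      module
    rw [es] at h1
    refine ⟨_, _, h1, ?_, ?_, add_mem hrc (R.smul_mem _ hr)⟩
    · rw [LinearMap.sub_apply, LinearMap.smul_apply, eφr, smul_zero, sub_zero]
      exact hχr
    · rwa [map_add, map_smul, hρr, smul_zero, add_zero]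
  have hs0 : s ≠ 0 := fun e => hρs (by rw [e, map_zero])
  have hσ0 : σ ≠ 0 := fun e => hσr (by rw [e]; rfl)
  obtain ⟨σ0, σ1, rfl, hσ0R, hσ1U⟩ := exists_fun_parts hP.compl σ
  obtain ⟨wσ, hwσ, rfl⟩ := hP.exists_rep hσ0R
  have hts' : Tv H ((0 : V) + s) (B wσ + σ1) := by rwa [zero_add]
  obtain ⟨c2, hc2, e⟩ := hP.parallel hPt hB hts' (zero_mem U) hsR hwσ hσ1U (by rwa [zero_add]) hσ0
  rw [smul_zero] at e
  obtain ⟨B', hP', -⟩ := hP.extend hc hr hsR hρ (σ := B wσ + σ1)
    (fun u hu => by rw [e, map_zero, zero_add]; exact hσ1U u hu) hrρ hts hρs hσr (Or.inr ⟨ha0, hA, h⟩)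
  refine hno ⟨_, _, B', hP', lt_of_le_of_ne le_sup_left fun e1 => hr0 ?_, inf_le_left.trans inf_le_left⟩
  exact eq_zero_of_mem_both hP.compl
    (e1 ▸ Submodule.mem_sup_right (Submodule.subset_span (by simp))) hr

end CfsgLib.TvGenerated
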